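import Mathlib
import Cfsg.Agent.H360.ON.Sys
import Cfsg.Agent.H88.RkRee_m3
import Cfsg.Agent.H970.TwoSporBase_m3
import Cfsg.Agent.ClassicalGeometry.SympBasic
import Cfsg.Agent.H249.SpTwoExport
import Cfsg.Agent.SporadicRecognition.HSAssemble
import Cfsg.Agent.H88.RkPsu
import Cfsg.Agent.H57.TTOut
import Cfsg.Agent.H436.TTPsl2
import Cfsg.Agent.S0243
import Cfsg.Agent.S2119
import Cfsg.Agent.FastGrp
import Cfsg.Agent.Prune
set_option linter.all false
prune_inst 0x7ffdfffbbbf87fffffff7e7ffffddffc39921fffe6dff94bffecfbff0bdf03060be5fbaf09e010ff1ef7e29c10b87853fb7eeeffea6bdc7ffffd5ff45ffbee5ff7ffbd0d71d7bc340ffe6ffffbf0778e7f3fffffffffffffffffffffffffffbeffffffffffff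
open scoped Cfsg.Agent.FastGrp

-- part: H88/SysNum
section
/-!
# Numerical consequences of the existence of a non-semiregular TI family (helper88)

`Sys N` : a 2-transitive group `G` of degree `n` with a non-semiregular TI family.
`β = |N a ∩ G_b| ≥ 2`, `β²` divides `|G_ab|`, `|N a| = ν β` with `2 ≤ ν ∣ n - 1`; for a prime `r` exactly dividing `|G_a|`
and a bound `c` for the centralisers of the elements of order `r`:
* if `r ∣ |N a|`, then `|G_a|` divides `t (r - 1) c` with `t ∣ |N a|`, `t ≡ 1 mod r`;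
* otherwise for every prime `s` the `s`-part of `|N a|` is congruent to `s ^ i` mod `r` for some `s ^ i ∣ c`.
-/

set_option autoImplicit false

namespace Cfsg.Agent.H88.SysNum

open Subgroup MulAction Cfsg.Agent.H360.ON

variable {G X : Type*} [Group G] [MulAction G X] [Finite G] [Finite X] {N : X → Subgroup G}

omit [Finite G] [Finite X] in
theorem two (S : Sys N) : IsMultiplyPretransitive G X 2 := by
  rw [is_two_pretransitive_iff]
  intro a b c d hab hcd
  exact S.two a b c d hab hcd

/-- a group isomorphic to the two-point stabiliser -/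
theorem card_stab (S : Sys N) {a b : X} (hab : a ≠ b) :
    Nat.card (stabilizer G a) = (Nat.card X - 1) * Nat.card ↥(stabilizer G a ⊓ stabilizer G b) := by
  rw [RankOne.card_stab_two (two S) hab.symm]
  congr 1
  exact Nat.card_congr ⟨fun t => ⟨t.1.1, t.1.2, t.2⟩, fun t => ⟨⟨t.1, t.2.1⟩, t.2.2⟩, fun _ => rfl, fun _ => rfl⟩

theorem card_G (S : Sys N) (a : X) : Nat.card G = Nat.card X * Nat.card (stabilizer G a) := by
  have h1 := (stabilizer G a).index_mul_card
  have ht : IsPretransitive G X := by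
    refine ⟨fun x y => ?_⟩
    by_cases hxy : x = y
    · exact ⟨1, by rw [hxy, one_smul]⟩
    · obtain ⟨g, h, -⟩ := S.two x y y x hxy (Ne.symm hxy)
      exact ⟨g, h⟩
  rw [index_stabilizer_of_transitive] at h1
  exact h1.symm

theorem sq_dvd (S : Sys N) {a b : X} (hab : a ≠ b) :
    Nat.card (A N a b) ^ 2 ∣ Nat.card ↥(stabilizer G a ⊓ stabilizer G b) := by
  let φ : A N a b × A N b a →* ↥(stabilizer G a ⊓ stabilizer G b) :=
    { toFun := fun p => ⟨p.1.1 * p.2.1, mul_mem (S.fix a _ p.1.2.1) p.2.2.2, mul_mem p.1.2.2 (S.fix b _ p.2.2.1)⟩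
      map_one' := by
        apply Subtype.ext
        simp only [_root_.Prod.fst_one, _root_.OneMemClass.coe_one, _root_.Prod.snd_one, _root_.mul_one]
      map_mul' := by
        rintro ⟨x, y⟩ ⟨x', y'⟩
        apply Subtype.ext
        change (x * x' : G) * (y * y') = x * y * (x' * y')
        have h := S.comm_AB hab x'.2 y.2
        calc (x * x' : G) * (y * y') = x * (x' * y) * y' := by group
          _ = x * (y * x') * y' := by rw [h]
          _ = _ := by group }
  have hinj : Function.Injective φ := by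
    rw [injective_iff_map_eq_one]
    rintro ⟨x, y⟩ h
    have h1 : (x : G) * y = 1 := congrArg Subtype.val h
    have h2 : (x : G) = (y : G)⁻¹ := eq_inv_of_mul_eq_one_left h1
    have h3 : (x : G) ∈ N b := by rw [h2]; exact inv_mem y.2.1
    have h4 := S.ti a b hab x x.2.1 h3
    rw [h4, one_mul] at h1
    exact Prod.ext (Subtype.ext h4) (Subtype.ext h1)
  have h1 := Subgroup.card_dvd_of_injective φ hinj
  rwa [Nat.card_prod, S.card_A hab.symm hab, ← pow_two] at h1

theorem normal (S : Sys N) (a : X) : ((N a).subgroupOf (stabilizer G a)).Normal := by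
  refine ⟨fun n hn g => ?_⟩
  rw [Subgroup.mem_subgroupOf] at hn ⊢
  exact S.mem_stab_conj hn g.2

omit [Finite G] [Finite X] in
theorem le_stab (S : Sys N) (a : X) : N a ≤ stabilizer G a := fun x hx => S.fix a x hx

theorem exists_nu (S : Sys N) [FaithfulSMul G X] {a b : X} (hab : a ≠ b) :
    ∃ ν : ℕ, 2 ≤ ν ∧ ν ∣ Nat.card X - 1 ∧ Nat.card (N a) = ν * Nat.card (A N a b) := by
  have hn := normal S a
  set M := (N a).subgroupOf (stabilizer G a) with hM
  set H := (stabilizer G b).subgroupOf (stabilizer G a) with hH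
  have hcM : Nat.card M = Nat.card (N a) := Nat.card_congr (subgroupOfEquivOfLe (le_stab S a)).toEquiv
  have hcH : Nat.card H = Nat.card ↥(stabilizer G a ⊓ stabilizer G b) :=
    Nat.card_congr ⟨fun t => ⟨t.1.1, t.1.2, t.2⟩, fun t => ⟨⟨t.1, t.2.1⟩, t.2.2⟩, fun _ => rfl, fun _ => rfl⟩
  have hcMH : Nat.card ↥(M ⊓ H) = Nat.card (A N a b) :=
    Nat.card_congr ⟨fun t => ⟨t.1.1, t.2.1, t.2.2⟩, fun t => ⟨⟨t.1, S.fix a _ t.2.1⟩, t.2.1, t.2.2⟩, fun _ => rfl,
      fun _ => rfl⟩
  obtain ⟨ν, hν⟩ : Nat.card (A N a b) ∣ Nat.card (N a) := card_dvd_of_le inf_le_left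
  have hA2 := S.two_le_card_A hab
  refine ⟨ν, ?_, ?_, by rw [hν, mul_comm]⟩
  · by_contra h
    have h1 : ν = 0 ∨ ν = 1 := by omega
    have hpos : 0 < Nat.card (N a) := Nat.card_pos
    rcases h1 with rfl | rfl
    · omega
    · rw [mul_one] at hν
      -- `N a` fixes every point
      have hall : ∀ c, a ≠ c → A N a c = N a := by
        intro c hac
        apply Subgroup.eq_of_le_of_card_ge inf_le_left
        rw [hν]
        exact (S.card_A hab hac).le
      obtain ⟨x, hx, hx1⟩ := S.exists_ne_one hab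
      apply hx1
      apply FaithfulSMul.eq_of_smul_eq_smul (α := X)
      intro c
      rw [one_smul]
      by_cases hac : a = c
      · rw [← hac]
        exact S.fix a x hx.1
      · have h2 : x ∈ A N a c := by
          rw [hall c hac]
          exact hx.1
        exact h2.2
  · have h1 : M.relIndex (H ⊔ M) = M.relIndex H := by
      rw [sup_comm]
      exact relIndex_sup_left H M
    have h2 : Nat.card H = Nat.card ↥(M ⊓ H) * M.relIndex H := by
      have := (M.subgroupOf H).card_mul_index
      rw [← this]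
      congr 1
      exact Nat.card_congr ⟨fun t => ⟨t.1.1, t.2, t.1.2⟩, fun t => ⟨⟨t.1, t.2.2⟩, t.2.1⟩, fun _ => rfl, fun _ => rfl⟩
    have h3 : Nat.card ↥(H ⊔ M) = Nat.card M * M.relIndex (H ⊔ M) := by
      have := (M.subgroupOf (H ⊔ M)).card_mul_index
      rw [← this]
      congr 1
      exact Nat.card_congr (subgroupOfEquivOfLe (le_sup_right : M ≤ H ⊔ M)).toEquiv
    have h4 : Nat.card ↥(H ⊔ M) ∣ Nat.card (stabilizer G a) := card_subgroup_dvd_card _
    rw [card_stab S hab] at h4
    rw [h3, h1, hcM, hν] at h4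
    rw [hcMH, hcH] at h2
    rw [h2] at h4
    have h5 : Nat.card (A N a b) * M.relIndex H * ν ∣ Nat.card (A N a b) * M.relIndex H * (Nat.card X - 1) := by
      have e1 : Nat.card (A N a b) * M.relIndex H * ν = Nat.card (A N a b) * ν * M.relIndex H := by ring
      have e2 : Nat.card (A N a b) * M.relIndex H * (Nat.card X - 1) =
        (Nat.card X - 1) * (Nat.card (A N a b) * M.relIndex H) := by ring
      rw [e1, e2]
      exact h4
    refine Nat.dvd_of_mul_dvd_mul_left ?_ h5
    rw [← h2]
    exact Nat.card_pos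

/-- `|N(P)|` divides `(r - 1) |C(P)|` -/
theorem card_normalizer_dvd {H : Type*} [Group H] [Finite H] {P : Subgroup H} {r : ℕ} (hr : r.Prime)
    (hP : Nat.card P = r) :
    Nat.card (normalizer (P : Set H)) ∣ (r - 1) * Nat.card (centralizer (P : Set H)) := by
  have hf : Fact r.Prime := ⟨hr⟩
  have hcyc : IsCyclic P := isCyclic_of_prime_card hP
  have h1 := card_dvd_of_injective _ (QuotientGroup.kerLift_injective P.normalizerMonoidHom)
  rw [normalizerMonoidHom_ker, hcyc.card_mulAut, hP, Nat.totient_prime hr] at h1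
  have h2 := ((centralizer (P : Set H)).subgroupOf (normalizer (P : Set H))).card_mul_index
  have h3 : Nat.card ((centralizer (P : Set H)).subgroupOf (normalizer (P : Set H))) =
      Nat.card (centralizer (P : Set H)) :=
    Nat.card_congr (subgroupOfEquivOfLe (centralizer_le_normalizer _)).toEquiv
  rw [← h2, h3, mul_comm]
  exact Nat.mul_dvd_mul_right h1 _

/-- the numerical statement -/
def Num (ga gab m r c : ℕ) : Prop :=
  ∃ ν β : ℕ, 2 ≤ ν ∧ ν ∣ m ∧ 2 ≤ β ∧ β ^ 2 ∣ gab ∧
    ((r ∣ ν * β ∧ ∃ t, t ∣ ν * β ∧ t ≡ 1 [MOD r] ∧ ga ∣ t * ((r - 1) * c)) ∨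
      (¬ r ∣ ν * β ∧ ∀ s j : ℕ, s.Prime → s ^ j ∣ ν * β → ¬ s ^ (j + 1) ∣ ν * β →
        ∃ i, s ^ i ∣ c ∧ s ^ j ≡ s ^ i [MOD r]))

theorem num (S : Sys N) [FaithfulSMul G X] {a b : X} (hab : a ≠ b) {r c : ℕ} (hr : r.Prime)
    (h1 : r ∣ Nat.card (stabilizer G a)) (h2 : ¬ r ^ 2 ∣ Nat.card (stabilizer G a))
    (hc : ∀ x : G, orderOf x = r → x • a = a → Nat.card (centralizer ({x} : Set G)) ∣ c) :
    Num (Nat.card (stabilizer G a)) (Nat.card ↥(stabilizer G a ⊓ stabilizer G b)) (Nat.card X - 1) r c := by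
  have hf : Fact r.Prime := ⟨hr⟩
  obtain ⟨ν, hν2, hνm, hν⟩ := exists_nu S hab
  refine ⟨ν, Nat.card (A N a b), hν2, hνm, S.two_le_card_A hab, sq_dvd S hab, ?_⟩
  rw [← hν]
  have hn := normal S a
  set M := (N a).subgroupOf (stabilizer G a) with hM
  have hcM : Nat.card M = Nat.card (N a) := Nat.card_congr (subgroupOfEquivOfLe (le_stab S a)).toEquiv
  -- centralisers
  have hcent : ∀ P : Subgroup (stabilizer G a), Nat.card P = r →
      Nat.card (centralizer (P : Set (stabilizer G a))) ∣ c := by
    intro P hP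
    obtain ⟨x, hx⟩ := exists_prime_orderOf_dvd_card' r (G := P) (by rw [hP])
    have hxo : orderOf ((x : stabilizer G a) : G) = r := by
      rw [← hx, Subgroup.orderOf_coe, Subgroup.orderOf_coe]
    refine dvd_trans ?_ (hc ((x : stabilizer G a) : G) hxo (x : stabilizer G a).2)
    let f : centralizer (P : Set (stabilizer G a)) →* centralizer ({((x : stabilizer G a) : G)} : Set G) :=
      { toFun := fun g => ⟨(g : stabilizer G a), by
          rw [mem_centralizer_singleton_iff]
          have := mem_centralizer_iff.1 g.2 x x.2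
          exact (congrArg Subtype.val this).symm⟩
        map_one' := rfl
        map_mul' := fun _ _ => rfl }
    apply card_dvd_of_injective f
    intro g g' h
    have h3 := congrArg Subtype.val h
    exact Subtype.ext (Subtype.ext h3)
  rw [← hcM]
  by_cases hrM : r ∣ Nat.card M
  · left
    refine ⟨hrM, ?_⟩
    obtain ⟨x, hx⟩ := exists_prime_orderOf_dvd_card' r hrM
    set P : Subgroup (stabilizer G a) := zpowers (x : stabilizer G a) with hPdef
    have hPM : P ≤ M := by
      rw [hPdef, zpowers_le]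
      exact x.2
    have hP : Nat.card P = r := by
      rw [hPdef, Nat.card_zpowers, Subgroup.orderOf_coe, hx]
    have h3 := H970.StabK.card_normalizer_frattini hPM hP h2
    -- the number of Sylow subgroups
    set Q : Subgroup M := P.subgroupOf M with hQdef
    have hQ : Nat.card Q = r := by
      rw [Nat.card_congr (Subgroup.subgroupOfEquivOfLe hPM).toEquiv, hP]
    have hM2 : ¬ r ^ 2 ∣ Nat.card M := fun h => h2 (h.trans (card_subgroup_dvd_card M))
    obtain ⟨Sy, hSy⟩ := H970.StabK.exists_sylow hQ hM2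
    refine ⟨Nat.card (Sylow r M), ?_, card_sylow_modEq_one r M, ?_⟩
    · exact (Sylow.card_dvd_index Sy).trans (index_dvd_card _)
    · have h4 : Nat.card (Sylow r M) * Nat.card (normalizer (Q : Set M)) = Nat.card M := by
        rw [Sylow.card_eq_index_normalizer Sy, ← hSy]
        exact index_mul_card _
      have h5 : Nat.card (stabilizer G a) = Nat.card (Sylow r M) * Nat.card (normalizer (P : Set (stabilizer G a))) := by
        rw [h3, ← M.index_mul_card, ← h4]
        ring
      rw [h5]
      apply Nat.mul_dvd_mul_left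
      exact (card_normalizer_dvd hr hP).trans (Nat.mul_dvd_mul_left _ (hcent P hP))
  · right
    refine ⟨hrM, ?_⟩
    obtain ⟨x, hx⟩ := exists_prime_orderOf_dvd_card' r h1
    set P : Subgroup (stabilizer G a) := zpowers x with hPdef
    have hP : Nat.card P = r := by
      rw [hPdef, Nat.card_zpowers, hx]
    intro s j hs hj1 hj2
    obtain ⟨i, hi1, hi2⟩ := H970.StabK.exists_pow (R := M) hP hrM s hs
    have hfac : (Nat.card M).factorization s = j := by
      have h0 : Nat.card M ≠ 0 := Nat.card_pos.ne'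
      have h3 := (hs.pow_dvd_iff_le_factorization h0).1 hj1
      have h4 : ¬ j + 1 ≤ (Nat.card M).factorization s := fun h => hj2 ((hs.pow_dvd_iff_le_factorization h0).2 h)
      omega
    rw [hfac] at hi2
    refine ⟨i, hi1.trans (dvd_trans ?_ (hcent P hP)), hi2⟩
    exact card_dvd_of_le (H970.StabK.inf_le_cent hP hrM)

end Cfsg.Agent.H88.SysNum
end

-- part: H88/SysChk
section
/-!
# Exclusion of TI families by arithmetic (helper88)

* `card_cent_dvd` : an element of prime order `r` with exactly one fixed point among `r k + 1` points has a centraliser of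
  order dividing `r ^ k * k!`;
* `chk`, `not_num` : a kernel-friendly test for `¬ Num`;
* `not_sys_k`, `not_sys_c` : the two forms of the exclusion.
-/

set_option autoImplicit false

namespace Cfsg.Agent.H88.SysNum

open Subgroup MulAction Cfsg.Agent.H360.ON

theorem card_cent_dvd {G X : Type*} [Group G] [MulAction G X] [Finite G] [Finite X] [FaithfulSMul G X] {x : G} {a : X}
    {r k : ℕ} (hr : r.Prime) (hx : orderOf x = r) (hxa : x • a = a) (hfix : ∀ b, b ≠ a → x • b ≠ b)
    (hn : Nat.card X = r * k + 1) : Nat.card (centralizer ({x} : Set G)) ∣ r ^ k * k.factorial := by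
  classical
  have : Fintype X := Fintype.ofFinite X
  have hf : Fact r.Prime := ⟨hr⟩
  let φ : G →* Equiv.Perm X := toPermHom G X
  have hφ : Function.Injective φ := MulAction.toPerm_injective
  set g : Equiv.Perm X := φ x with hg
  have hgo : orderOf g = r := by rw [hg, orderOf_injective φ hφ, hx]
  have h1 : Nat.card (centralizer ({x} : Set G)) ∣ Nat.card (centralizer ({g} : Set (Equiv.Perm X))) := by
    let f : centralizer ({x} : Set G) →* centralizer ({g} : Set (Equiv.Perm X)) :=
      { toFun := fun y => ⟨φ y, by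
          rw [mem_centralizer_singleton_iff, hg, ← map_mul, ← map_mul, mem_centralizer_singleton_iff.1 y.2]⟩
        map_one' := by
          apply Subtype.ext
          simp only [_root_.OneMemClass.coe_one, _root_.map_one]
        map_mul' := fun y z => by
          apply Subtype.ext
          simp only [_root_.Subgroup.coe_mul, _root_.map_mul, _root_.MulMemClass.mk_mul_mk] }
    apply card_dvd_of_injective f
    intro y z h
    exact Subtype.ext (hφ (congrArg Subtype.val h))
  refine h1.trans ?_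
  obtain ⟨m, hm⟩ := Equiv.Perm.cycleType_prime_order (σ := g) (by rw [hgo]; exact hr)
  rw [hgo] at hm
  have hsupp : g.support = Finset.univ.erase a := by
    ext b
    rw [Equiv.Perm.mem_support, Finset.mem_erase]
    constructor
    · intro h
      refine ⟨?_, Finset.mem_univ _⟩
      rintro rfl
      exact h hxa
    · rintro ⟨h, -⟩
      exact hfix b h
  have hsum : g.cycleType.sum = r * k := by
    rw [Equiv.Perm.sum_cycleType, hsupp, Finset.card_erase_of_mem (Finset.mem_univ _), Finset.card_univ,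
      ← Nat.card_eq_fintype_card, hn, Nat.add_sub_cancel]
  have hmk : m + 1 = k := by
    rw [hm, Multiset.sum_replicate, smul_eq_mul, mul_comm r k] at hsum
    exact Nat.eq_of_mul_eq_mul_right hr.pos hsum
  rw [Equiv.Perm.nat_card_centralizer, hsum, ← Nat.card_eq_fintype_card, hn, hm, hmk]
  have h2 : (Multiset.replicate k r).toFinset = {r} := by
    rw [Multiset.toFinset_replicate, if_neg (by omega)]
  rw [h2, Finset.prod_singleton, Multiset.prod_replicate, Multiset.count_replicate_self, Nat.add_sub_cancel_left]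
  simp

/-- no divisor `t ≡ 1 mod r` of `w` with `ga ∣ t (r - 1) c` -/
def chkA (w ga r c : ℕ) : Bool :=
  (List.range (w / r + 1)).all fun i => !(w % (1 + r * i) == 0) || !((1 + r * i) * ((r - 1) * c) % ga == 0)

/-- some `s`-part of `w` is not congruent mod `r` to a power of `s` dividing `c` -/
def chkB (w r c : ℕ) : Bool :=
  [2, 3, 5, 7, 11, 23].any fun s => (List.range 12).any fun j =>
    (w % s ^ j == 0) && (!(w % s ^ (j + 1) == 0)) && (List.range 30).all fun i => !(c % s ^ i == 0) || !(s ^ j % r == s ^ i % r)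

/-- the test -/
def chk (ga gab m r c B : ℕ) : Bool :=
  (List.range (m + 1)).all fun ν => (Nat.blt ν 2) || (!(m % ν == 0)) || (List.range (B + 1)).all fun β =>
    (Nat.blt β 2) || (!(gab % (β ^ 2) == 0)) || (bif (ν * β) % r == 0 then chkA (ν * β) ga r c else chkB (ν * β) r c)

theorem not_num {ga gab m r c B : ℕ} (hga : 0 < ga) (hgab : 0 < gab) (hm : 0 < m) (hr : 1 < r) (hc : 0 < c)
    (hc' : c < 2 ^ 30) (hB : gab < (B + 1) ^ 2) (h : chk ga gab m r c B = true) : ¬ Num ga gab m r c := by
  rintro ⟨ν, β, hν2, hνm, hβ2, hβ, h1⟩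
  have hνle : ν ≤ m := Nat.le_of_dvd hm hνm
  have hβle : β ≤ B := by
    by_contra h2
    have h3 : B + 1 ≤ β := by omega
    have h4 := Nat.pow_le_pow_left h3 2
    have h5 := Nat.le_of_dvd hgab hβ
    omega
  unfold chk at h
  rw [List.all_eq_true] at h
  have h2 := h ν (List.mem_range.2 (by omega))
  rw [Bool.or_eq_true, Bool.or_eq_true] at h2
  have hν0 : ¬ Nat.blt ν 2 = true := by
    rw [Nat.blt_eq]
    omega
  have hν1 : ¬ (!(m % ν == 0)) = true := by
    rw [Nat.mod_eq_zero_of_dvd hνm]
    decide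
  rcases h2 with (h2 | h2) | h2
  · exact hν0 h2
  · exact hν1 h2
  rw [List.all_eq_true] at h2
  have h3 := h2 β (List.mem_range.2 (by omega))
  rw [Bool.or_eq_true, Bool.or_eq_true] at h3
  have hβ0 : ¬ Nat.blt β 2 = true := by
    rw [Nat.blt_eq]
    omega
  have hβ1 : ¬ (!(gab % (β ^ 2) == 0)) = true := by
    rw [Nat.mod_eq_zero_of_dvd hβ]
    decide
  rcases h3 with (h3 | h3) | h3
  · exact hβ0 h3
  · exact hβ1 h3
  have hw : 0 < ν * β := Nat.mul_pos (by omega) (by omega)
  rcases h1 with ⟨hr1, t, ht, htr, htg⟩ | ⟨hr1, h4⟩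
  · rw [Nat.mod_eq_zero_of_dvd hr1] at h3
    simp only [beq_self_eq_true, cond_true] at h3
    unfold chkA at h3
    rw [List.all_eq_true] at h3
    have ht0 : t % r = 1 := by
      have : t % r = 1 % r := htr
      rwa [Nat.mod_eq_of_lt hr] at this
    have ht1 : t = 1 + r * (t / r) := by
      have := Nat.mod_add_div t r
      rw [ht0] at this
      exact this.symm
    have h5 := h3 (t / r) (List.mem_range.2 (Nat.lt_succ_of_le (Nat.div_le_div_right (Nat.le_of_dvd hw ht))))
    rw [← ht1, Nat.mod_eq_zero_of_dvd ht, Nat.mod_eq_zero_of_dvd htg] at h5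
    simp at h5
  · have h5 : ((ν * β) % r == 0) = false := by
      rw [beq_eq_false_iff_ne]
      intro h6
      exact hr1 (Nat.dvd_of_mod_eq_zero h6)
    rw [h5] at h3
    simp only [cond_false] at h3
    unfold chkB at h3
    rw [List.any_eq_true] at h3
    obtain ⟨s, hs, h3⟩ := h3
    rw [List.any_eq_true] at h3
    obtain ⟨j, -, h3⟩ := h3
    simp only [Bool.and_eq_true, beq_iff_eq, Bool.not_eq_true', beq_eq_false_iff_ne, ne_eq] at h3
    obtain ⟨⟨h6, h7⟩, h8⟩ := h3
    have hsp : s.Prime := by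
      simp only [List.mem_cons, List.not_mem_nil, or_false] at hs
      rcases hs with rfl | rfl | rfl | rfl | rfl | rfl <;> norm_num
    obtain ⟨i, hi1, hi2⟩ := h4 s j hsp (Nat.dvd_of_mod_eq_zero h6) (fun h9 => h7 (Nat.mod_eq_zero_of_dvd h9))
    have hi : i < 30 := by
      have h9 : 2 ^ i ≤ s ^ i := Nat.pow_le_pow_left hsp.two_le i
      have h10 := Nat.le_of_dvd hc hi1
      exact (Nat.pow_lt_pow_iff_right (by norm_num)).1 (lt_of_le_of_lt (h9.trans h10) hc')
    rw [List.all_eq_true] at h8
    have h9 := h8 i (List.mem_range.2 hi)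
    rw [Nat.mod_eq_zero_of_dvd hi1, (show s ^ j % r = s ^ i % r from hi2)] at h9
    simp at h9

variable {G X : Type*} [Group G] [MulAction G X] [Finite G] [Finite X] [FaithfulSMul G X] {N : X → Subgroup G}

/-- exclusion with a bound for centralisers -/
theorem not_sys_c (S : Sys N) {n ga gab r c B : ℕ} (hn : Nat.card X = n) (hn2 : 2 ≤ n) (hG : Nat.card G = n * ga)
    (hga : ga = (n - 1) * gab) (hga0 : 0 < ga) (hr : r.Prime) (h1 : r ∣ ga) (h2 : ¬ r ^ 2 ∣ ga)
    (hc : ∀ x : G, orderOf x = r → Nat.card (centralizer ({x} : Set G)) ∣ c)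
    (hc0 : 0 < c) (hc1 : c < 2 ^ 30) (hB : gab < (B + 1) ^ 2) (h : chk ga gab (n - 1) r c B = true) : False := by
  obtain ⟨a, b, hab, -⟩ := S.nsr
  have h3 := card_G S a
  rw [hG, hn] at h3
  have h4 : Nat.card (stabilizer G a) = ga := (Nat.eq_of_mul_eq_mul_left (by omega) h3).symm
  have h5 := card_stab S hab
  rw [h4, hn, hga] at h5
  have h6 : Nat.card ↥(stabilizer G a ⊓ stabilizer G b) = gab :=
    (Nat.eq_of_mul_eq_mul_left (by omega) h5).symm
  have h7 := num S hab hr (by rw [h4]; exact h1) (by rw [h4]; exact h2) (fun x hx _ => hc x hx)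
  rw [h4, h6, hn] at h7
  have hgab0 : 0 < gab := by
    rcases Nat.eq_zero_or_pos gab with h8 | h8
    · rw [h8, mul_zero] at hga
      omega
    · exact h8
  exact not_num hga0 hgab0 (by omega) hr.one_lt hc0 hc1 hB h h7

/-- exclusion with a prime `r` dividing `n - 1` but not `|G_ab|` -/
theorem not_sys_k (S : Sys N) {n ga gab r k B : ℕ} (hn : Nat.card X = n) (hG : Nat.card G = n * ga)
    (hga : ga = (n - 1) * gab) (hga0 : 0 < ga) (hr : r.Prime) (hk : n = r * k + 1) (hk0 : k ≠ 0)
    (h2 : ¬ r ^ 2 ∣ ga) (hgab : ¬ r ∣ gab)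
    (hc1 : r ^ k * k.factorial < 2 ^ 30) (hB : gab < (B + 1) ^ 2)
    (h : chk ga gab (n - 1) r (r ^ k * k.factorial) B = true) : False := by
  have hrk : 0 < r * k := Nat.mul_pos hr.pos (Nat.pos_of_ne_zero hk0)
  obtain ⟨a, b, hab, -⟩ := S.nsr
  have h3 := card_G S a
  rw [hG, hn] at h3
  have h4 : Nat.card (stabilizer G a) = ga := (Nat.eq_of_mul_eq_mul_left (by omega) h3).symm
  have h6 : ∀ b, a ≠ b → Nat.card ↥(stabilizer G a ⊓ stabilizer G b) = gab := by
    intro b hab
    have h5 := card_stab S hab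
    rw [h4, hn, hga] at h5
    exact (Nat.eq_of_mul_eq_mul_left (by omega) h5).symm
  have h7 := num S hab hr (c := r ^ k * k.factorial) (by
    rw [h4, hga, hk, Nat.add_sub_cancel, mul_assoc]; exact dvd_mul_right _ _) (by rw [h4]; exact h2) (by
    intro x hx hxa
    refine card_cent_dvd hr hx hxa ?_ (hn.trans hk)
    intro b hba hxb
    apply hgab
    rw [← h6 b (Ne.symm hba), ← hx]
    exact Subgroup.orderOf_dvd_natCard _ (show x ∈ stabilizer G a ⊓ stabilizer G b from ⟨hxa, hxb⟩))
  rw [h4, h6 b hab, hn] at h7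
  have hgab0 : 0 < gab := by
    rcases Nat.eq_zero_or_pos gab with h8 | h8
    · rw [h8, mul_zero] at hga
      omega
    · exact h8
  exact not_num hga0 hgab0 (by omega) hr.one_lt (Nat.mul_pos (pow_pos hr.pos _) (Nat.factorial_pos _)) hc1 hB h h7

/-- exclusion by `β² ∣ |G_ab|` -/
theorem not_sys_sq (S : Sys N) {n gab : ℕ} (hn : Nat.card X = n) (hn2 : 2 ≤ n) (hG : Nat.card G = n * ((n - 1) * gab))
    (hgab : 0 < gab) (h : ∀ β, 2 ≤ β → ¬ β ^ 2 ∣ gab) : False := by
  obtain ⟨a, b, hab, -⟩ := S.nsr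
  have h3 := card_G S a
  rw [hG, hn, card_stab S hab, hn] at h3
  have h4 := Nat.eq_of_mul_eq_mul_left (by omega) (Nat.eq_of_mul_eq_mul_left (by omega) h3)
  have h5 := sq_dvd S hab
  rw [← h4] at h5
  exact h _ (S.two_le_card_A hab) h5

/-! ### The tests -/

-- M11 on 11 points
theorem t_m11 : chk 720 72 10 5 (5 ^ 2 * Nat.factorial 2) 8 = true := by decide +kernel
-- M11 on 12 points
theorem t_m11' : chk 660 60 11 11 (11 ^ 1 * Nat.factorial 1) 7 = true := by decide +kernel
-- M12
theorem t_m12 : chk 7920 720 11 11 (11 ^ 1 * Nat.factorial 1) 26 = true := by decide +kernel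
theorem t_m12' : chk 15840 1440 11 11 (11 ^ 1 * Nat.factorial 1) 37 = true := by decide +kernel
-- M22 with centraliser bound 7, 14
theorem t_m22 : chk 20160 960 21 7 7 30 = true := by decide +kernel
theorem t_m22' : chk 40320 1920 21 7 14 43 = true := by decide +kernel
-- M23
theorem t_m23 : chk 443520 20160 22 11 (11 ^ 2 * Nat.factorial 2) 141 = true := by decide +kernel
-- M24
theorem t_m24 : chk 10200960 443520 23 23 (23 ^ 1 * Nat.factorial 1) 665 = true := by decide +kernel
-- A7 on 15 points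
theorem t_a7 : chk 168 12 14 7 (7 ^ 2 * Nat.factorial 2) 3 = true := by decide +kernel
theorem t_a7' : chk 336 24 14 7 (7 ^ 2 * Nat.factorial 2) 4 = true := by decide +kernel
-- PSL(2, 11) on 11 points
theorem t_l11 : chk 60 6 10 5 (5 ^ 2 * Nat.factorial 2) 2 = true := by decide +kernel
theorem t_l11' : chk 120 12 10 5 (5 ^ 2 * Nat.factorial 2) 3 = true := by decide +kernel
-- HS on 176 points (centralisers of order prime to 5)
theorem t_hs : chk 252000 1440 175 7 354816 37 = true := by decide +kernel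
theorem t_hs' : chk 504000 2880 175 7 709632 53 = true := by decide +kernel
private noncomputable def _root_.Cfsg.Agent.KOb000c6d.oEq.{ku} (α : Sort ku) (a b : Nat) (f t : α) : α := @Decidable.rec (a = b) (fun _ => α) (fun _ => f) (fun _ => t) (Nat.decEq a b)
private noncomputable def _root_.Cfsg.Agent.KOb000c6d.k0.{ku} (α : Sort ku) (a b : Nat) (f t : α) : α := @Bool.rec (fun _ => α) f t (Nat.beq a b)
private theorem _root_.Cfsg.Agent.KOb000c6d.e0.{ku} : @_root_.Cfsg.Agent.KOb000c6d.oEq.{ku} = @_root_.Cfsg.Agent.KOb000c6d.k0.{ku} := funext fun α => funext fun a => funext fun b => funext fun f => funext fun t => by delta _root_.Cfsg.Agent.KOb000c6d.oEq _root_.Cfsg.Agent.KOb000c6d.k0; cases h : Nat.beq a b <;> cases Nat.decEq a b <;> rename_i g <;> first | rfl | exact absurd g (Nat.ne_of_beq_eq_false h) | exact absurd (Nat.eq_of_beq_eq_true h) g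
private theorem _root_.Cfsg.Agent.KOb000c6d.e1.{ku, kv} {α : Type kv} {M : List α → Sort ku} (φ : ∀ l, M l) {z : M List.nil} {s : ∀ a l, M l → M (List.cons a l)} (h0 : φ List.nil = z) (hs : ∀ a l, φ (List.cons a l) = s a l (φ l)) (l : List α) : φ l = @List.rec α M z s l := List.rec h0 (fun a l ih => (hs a l).trans (congrArg (s a l) ih)) l
private noncomputable def _root_.Cfsg.Agent.KOb000c6d.k2.{ku0} : type_of% @List.all.{ku0} := @(fun x0 x1 x2 => @List.rec.{(ku0+1), ku0} @x0 @(fun x3 => (@x0 → @Bool) → @Bool) @(fun x3 => @Bool.true) @(fun x3 x4 x5 x6 => @Bool.rec.{1} @(fun x7 => @Bool) @Bool.false (@x5 @x6) (@x6 @x3)) @x1 @x2)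
private theorem _root_.Cfsg.Agent.KOb000c6d.e2.{ku0} : @List.all.{ku0} = @_root_.Cfsg.Agent.KOb000c6d.k2.{ku0} := by delta _root_.Cfsg.Agent.KOb000c6d.k2; funext a0 a1 a2; refine (congrFun (_root_.Cfsg.Agent.KOb000c6d.e1 (fun a1 a2 => @List.all.{ku0} a0 a1 a2) ?_ (fun c0 c1 => ?_) a1) a2 :) <;> (rfl')
private theorem _root_.Cfsg.Agent.KOb000c6d.e3.{ku} {M : Nat → Sort ku} (φ : ∀ n, M n) {z : M Nat.zero} {s : ∀ n, M n → M (Nat.succ n)} (h0 : φ Nat.zero = z) (hs : ∀ n, φ (Nat.succ n) = s n (φ n)) (n : Nat) : φ n = @Nat.rec M z s n := Nat.rec h0 (fun n ih => (hs n).trans (congrArg (s n) ih)) n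
private noncomputable def _root_.Cfsg.Agent.KOb000c6d.k4 : type_of% @List.range.loop := @(fun x0 x1 => @Nat.rec.{1} @(fun x2 => (@List.{0} ℕ) → @List.{0} ℕ) @(fun x2 => @x2) @(fun x2 x3 x4 => @x3 (@x2 :: @x4)) @x0 @x1)
private theorem _root_.Cfsg.Agent.KOb000c6d.e4 : @List.range.loop = @_root_.Cfsg.Agent.KOb000c6d.k4 := by delta _root_.Cfsg.Agent.KOb000c6d.k4; funext a0 a1; refine (congrFun (_root_.Cfsg.Agent.KOb000c6d.e3 (fun a0 a1 => @List.range.loop a0 a1) ?_ (fun c0 => ?_) a0) a1 :) <;> (rfl')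
private noncomputable def _root_.Cfsg.Agent.KOb000c6d.k5.{ku0} : type_of% @List.any.{ku0} := @(fun x0 x1 x2 => @List.rec.{(ku0+1), ku0} @x0 @(fun x3 => (@x0 → @Bool) → @Bool) @(fun x3 => @Bool.false) @(fun x3 x4 x5 x6 => @Bool.rec.{1} @(fun x7 => @Bool) (@x5 @x6) @Bool.true (@x6 @x3)) @x1 @x2)
private theorem _root_.Cfsg.Agent.KOb000c6d.e5.{ku0} : @List.any.{ku0} = @_root_.Cfsg.Agent.KOb000c6d.k5.{ku0} := by delta _root_.Cfsg.Agent.KOb000c6d.k5; funext a0 a1 a2; refine (congrFun (_root_.Cfsg.Agent.KOb000c6d.e1 (fun a1 a2 => @List.any.{ku0} a0 a1 a2) ?_ (fun c0 c1 => ?_) a1) a2 :) <;> (rfl')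
private noncomputable def _root_.Cfsg.Agent.KOb000c6d.k6 : (by first | exact type_of% @Cfsg.Agent.H88.SysNum.chkB | exact Unit : Sort _) := by first | (refine @Subtype.val _ (fun g => @Cfsg.Agent.H88.SysNum.chkB = @g) (@Subtype.mk _ _ (@(fun x0 x1 x2 => @Cfsg.Agent.KOb000c6d.k5.{0} _ ((nat_lit 2) :: ((nat_lit 3) :: ((nat_lit 5) :: ((nat_lit 7) :: ((nat_lit 11) :: ((nat_lit 23) :: [])))))) @(fun x3 => @Cfsg.Agent.KOb000c6d.k5.{0} _ (@Cfsg.Agent.KOb000c6d.k4 (nat_lit 12) []) @(fun x4 => @Bool.rec.{1} @(fun x5 => @Bool) @Bool.false (@Cfsg.Agent.KOb000c6d.k2.{0} _ (@Cfsg.Agent.KOb000c6d.k4 (nat_lit 30) []) @(fun x5 => @Bool.rec.{1} @(fun x6 => @Bool) (@Bool.rec.{1} @(fun x6 => @Bool) @Bool.true @Bool.false (@Cfsg.Agent.KOb000c6d.k0.{1} @Bool (@Nat.mod (@Nat.pow @x3 @x4) @x1) (@Nat.mod (@Nat.pow @x3 @x5) @x1) @Bool.false @Bool.true)) @Bool.true (@Bool.rec.{1} @(fun x6 => @Bool) @Bool.true @Bool.false (@Cfsg.Agent.KOb000c6d.k0.{1} @Bool (@Nat.mod @x2 (@Nat.pow @x3 @x5)) (nat_lit 0) @Bool.false @Bool.true))))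 (@Bool.rec.{1} @(fun x5 => @Bool) @Bool.false (@Bool.rec.{1} @(fun x5 => @Bool) @Bool.true @Bool.false (@Cfsg.Agent.KOb000c6d.k0.{1} @Bool (@Nat.mod @x0 (@Nat.pow @x3 (@Nat.add @x4 (nat_lit 1)))) (nat_lit 0) @Bool.false @Bool.true)) (@Cfsg.Agent.KOb000c6d.k0.{1} @Bool (@Nat.mod @x0 (@Nat.pow @x3 @x4)) (nat_lit 0) @Bool.false @Bool.true)))))) ?_); rewrite [← Cfsg.Agent.KOb000c6d.e0.{1}, ← Cfsg.Agent.KOb000c6d.e2.{0}, ← Cfsg.Agent.KOb000c6d.e4, ← Cfsg.Agent.KOb000c6d.e5.{0}]; rfl') | exact @Cfsg.Agent.H88.SysNum.chkB | exact ()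
private theorem _root_.Cfsg.Agent.KOb000c6d.e6 : (by first | exact @Cfsg.Agent.H88.SysNum.chkB = @_root_.Cfsg.Agent.KOb000c6d.k6 | exact True : Prop) := by first | (delta _root_.Cfsg.Agent.KOb000c6d.k6; exact @Subtype.property _ (fun g => @Cfsg.Agent.H88.SysNum.chkB = @g) _) | rfl | trivial
private noncomputable def _root_.Cfsg.Agent.KOb000c6d.k7 : (by first | exact type_of% @Cfsg.Agent.H88.SysNum.chkA | exact Unit : Sort _) := by first | (refine @Subtype.val _ (fun g => @Cfsg.Agent.H88.SysNum.chkA = @g) (@Subtype.mk _ _ (@(fun x0 x1 x2 x3 => @Cfsg.Agent.KOb000c6d.k2.{0} _ (@Cfsg.Agent.KOb000c6d.k4 (@Nat.add (@Nat.div @x0 @x2) (nat_lit 1)) []) @(fun x4 => @Bool.rec.{1} @(fun x5 => @Bool) (@Bool.rec.{1} @(fun x5 => @Bool) @Bool.true @Bool.false (@Cfsg.Agent.KOb000c6d.k0.{1} @Bool (@Nat.mod (@Nat.mul (@Nat.add (nat_lit 1) (@Nat.mul @x2 @x4)) (@Nat.mul (@Nat.sub @x2 (nat_lit 1)) @x3)) @x1) (nat_lit 0) @Bool.false @Bool.true)) @Bool.true (@Bool.rec.{1} @(fun x5 => @Bool) @Bool.true @Bool.false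 (@Cfsg.Agent.KOb000c6d.k0.{1} @Bool (@Nat.mod @x0 (@Nat.add (nat_lit 1) (@Nat.mul @x2 @x4))) (nat_lit 0) @Bool.false @Bool.true))))) ?_); rewrite [← Cfsg.Agent.KOb000c6d.e0.{1}, ← Cfsg.Agent.KOb000c6d.e4, ← Cfsg.Agent.KOb000c6d.e2.{0}]; rfl') | exact @Cfsg.Agent.H88.SysNum.chkA | exact ()
private theorem _root_.Cfsg.Agent.KOb000c6d.e7 : (by first | exact @Cfsg.Agent.H88.SysNum.chkA = @_root_.Cfsg.Agent.KOb000c6d.k7 | exact True : Prop) := by first | (delta _root_.Cfsg.Agent.KOb000c6d.k7; exact @Subtype.property _ (fun g => @Cfsg.Agent.H88.SysNum.chkA = @g) _) | rfl | trivial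
private noncomputable def _root_.Cfsg.Agent.KOb000c6d.k8 : (by first | exact type_of% @Cfsg.Agent.H88.SysNum.chk | exact Unit : Sort _) := by first | (refine @Subtype.val _ (fun g => @Cfsg.Agent.H88.SysNum.chk = @g) (@Subtype.mk _ _ (@(fun x0 x1 x2 x3 x4 x5 => @Cfsg.Agent.KOb000c6d.k2.{0} _ (@Cfsg.Agent.KOb000c6d.k4 (@Nat.add @x2 (nat_lit 1)) []) @(fun x6 => @Bool.rec.{1} @(fun x7 => @Bool) (@Cfsg.Agent.KOb000c6d.k2.{0} _ (@Cfsg.Agent.KOb000c6d.k4 (@Nat.add @x5 (nat_lit 1)) []) @(fun x7 => @Bool.rec.{1} @(fun x8 => @Bool) (@Bool.rec.{1} @(fun x8 => @Bool) (@Cfsg.Agent.KOb000c6d.k6 (@Nat.mul @x6 @x7) @x3 @x4) (@Cfsg.Agent.KOb000c6d.k7 (@Nat.mul @x6 @x7) @x0 @x3 @x4) (@Cfsg.Agent.KOb000c6d.k0.{1} @Bool (@Nat.mod (@Nat.mul @x6 @x7) @x3) (nat_lit 0) @Bool.false @Bool.true)) @Bool.true (@Bool.rec.{1} @(fun x8 => @Bool) (@Bool.rec.{1} @(fun x8 => @Bool) @Bool.true @Bool.false (@Cfsg.Agent.KOb000c6d.k0.{1} @Bool (@Nat.mod @x1 (@Nat.pow @x7 (nat_lit 2))) (nat_lit 0) @Bool.false @Bool.true)) @Bool.true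 (@Nat.ble (@Nat.succ @x7) (nat_lit 2))))) @Bool.true (@Bool.rec.{1} @(fun x7 => @Bool) (@Bool.rec.{1} @(fun x7 => @Bool) @Bool.true @Bool.false (@Cfsg.Agent.KOb000c6d.k0.{1} @Bool (@Nat.mod @x2 @x6) (nat_lit 0) @Bool.false @Bool.true)) @Bool.true (@Nat.ble (@Nat.succ @x6) (nat_lit 2)))))) ?_); rewrite [← Cfsg.Agent.KOb000c6d.e0.{1}, ← Cfsg.Agent.KOb000c6d.e7, ← Cfsg.Agent.KOb000c6d.e6, ← Cfsg.Agent.KOb000c6d.e4, ← Cfsg.Agent.KOb000c6d.e2.{0}]; (try delta Cfsg.Agent.H88.SysNum.chk); (try generalize @Cfsg.Agent.H88.SysNum.chkB = g0); (try generalize @Cfsg.Agent.H88.SysNum.chkA = g1); rfl') | exact @Cfsg.Agent.H88.SysNum.chk | exact ()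
private theorem _root_.Cfsg.Agent.KOb000c6d.e8 : (by first | exact @Cfsg.Agent.H88.SysNum.chk = @_root_.Cfsg.Agent.KOb000c6d.k8 | exact True : Prop) := by first | (delta _root_.Cfsg.Agent.KOb000c6d.k8; exact @Subtype.property _ (fun g => @Cfsg.Agent.H88.SysNum.chk = @g) _) | rfl | trivial

-- Co3 on 276 points (centralisers of order prime to 5 and 7)
theorem t_co3 : chk 1796256000 6531840 275 11 566590464 2555 = true := by (first | (rewrite [Cfsg.Agent.KOb000c6d.e8]; set_option maxRecDepth 200000 in decide +kernel) | decide +kernel)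

end Cfsg.Agent.H88.SysNum
end

-- part: H88/CentM22
section
/-!
# The centralisers of the elements of order 7 in `M22` (helper88)

Only the order, the simplicity and `|C(x)| ∣ 42` (from the action on 22 points) are used.
-/

set_option autoImplicit false

namespace Cfsg.Agent.H88.CentM22

open Subgroup

variable {K : Type*} [Group K] [Finite K] [IsSimpleGroup K] {p : ℕ} [hp : Fact p.Prime]

/-- Burnside -/
theorem card_normalizer_ne (hna : ¬ ∀ x y : K, x * y = y * x) {P : Subgroup K} (hP : Nat.card P = p)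
    (hp2 : ¬ p ^ 2 ∣ Nat.card K) :
    Nat.card (normalizer (P : Set K)) ≠ Nat.card (centralizer (P : Set K)) := by
  intro heq
  obtain ⟨S, hS⟩ := H970.StabK.exists_sylow hP hp2
  have hle : normalizer (P : Set K) ≤ centralizer (P : Set K) := by
    have h := Subgroup.eq_of_le_of_card_ge (centralizer_le_normalizer (P : Set K)) heq.le
    exact h.ge
  have hcyc : IsCyclic P := isCyclic_of_prime_card hP
  have hcomm : ∀ a ∈ P, ∀ b ∈ P, a * b = b * a := by
    intro a ha b hb
    exact (mem_centralizer_iff.1 (hle (le_normalizer hb)) a ha)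
  have hle' : normalizer ((S : Subgroup K) : Set K) ≤ centralizer ((S : Subgroup K) : Set K) := by
    rw [hS]
    exact hle
  have hcompl := MonoidHom.ker_transferSylow_isComplement' S hle'
  rcases IsSimpleGroup.eq_bot_or_eq_top_of_normal (MonoidHom.transferSylow S hle').ker inferInstance with h | h
  · rw [h, Subgroup.isComplement'_bot_left, hS] at hcompl
    apply hna
    intro x y
    exact hcomm x (by rw [hcompl]; trivial) y (by rw [hcompl]; trivial)
  · rw [h, Subgroup.isComplement'_top_left, hS] at hcompl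
    rw [hcompl, Subgroup.card_bot] at hP
    exact hp.out.one_lt.ne hP

/-- **The centralisers of the elements of order 7.** -/
theorem card_cent (hna : ¬ ∀ x y : K, x * y = y * x) (hK : Nat.card K = 443520) {x : K} (hx : orderOf x = 7)
    (h42 : Nat.card (centralizer ({x} : Set K)) ∣ 42) : Nat.card (centralizer ({x} : Set K)) = 7 := by
  have hf : Fact (Nat.Prime 7) := ⟨by norm_num⟩
  have hP : Nat.card (zpowers x) = 7 := by rw [Nat.card_zpowers, hx]
  have hp2 : ¬ 7 ^ 2 ∣ Nat.card K := by rw [hK]; norm_num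
  obtain ⟨S, hS⟩ := H970.StabK.exists_sylow hP hp2
  have hC : Nat.card (centralizer ((zpowers x : Subgroup K) : Set K)) = Nat.card (centralizer ({x} : Set K)) := by
    rw [zpowers_eq_closure, centralizer_closure]
  have h1 := card_normalizer_ne hna hP hp2
  have h2 := SysNum.card_normalizer_dvd (by norm_num) hP
  have h3 := card_dvd_of_le (centralizer_le_normalizer ((zpowers x : Subgroup K) : Set K))
  have h4 := card_sylow_modEq_one 7 K
  rw [Sylow.card_eq_index_normalizer S] at h4
  have h5 : (S : Set K) = ((zpowers x : Subgroup K) : Set K) := by rw [← hS]; rfl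
  rw [h5] at h4
  have h6 := (normalizer ((zpowers x : Subgroup K) : Set K)).card_mul_index
  rw [hK] at h6
  have h7 : 7 ∣ Nat.card (centralizer ({x} : Set K)) := by
    rw [← hx]
    have : x ∈ centralizer ({x} : Set K) := mem_centralizer_singleton_iff.2 rfl
    exact Subgroup.orderOf_dvd_natCard _ this
  rw [hC] at h1 h2 h3
  generalize Nat.card (centralizer ({x} : Set K)) = c at *
  generalize Nat.card (normalizer ((zpowers x : Subgroup K) : Set K)) = N at *
  generalize (normalizer ((zpowers x : Subgroup K) : Set K)).index = n at *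
  obtain ⟨d, rfl⟩ := h7
  obtain ⟨j, rfl⟩ := h3
  have hd : d ∣ 6 := Nat.dvd_of_mul_dvd_mul_left (by norm_num : 0 < 7) (by simpa only [_root_.Nat.reduceMul] using h42)
  have hd0 : 0 < d := Nat.pos_of_dvd_of_pos hd (by norm_num)
  have hj : j ∣ 6 := Nat.dvd_of_mul_dvd_mul_left (by omega : 0 < 7 * d) (by
    rw [mul_comm (7 * d) 6]; exact h2)
  have hj0 : 0 < j := Nat.pos_of_dvd_of_pos hj (by norm_num)
  have hj1 : j ≠ 1 := by
    rintro rfl
    exact h1 (mul_one _)
  have hd6 := Nat.le_of_dvd (by norm_num) hd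
  have hj6 := Nat.le_of_dvd (by norm_num) hj
  have h8 : n % 7 = 1 := h4
  interval_cases d <;> interval_cases j <;> (clear * - h8 h6 hj h1 h42; omega)

end Cfsg.Agent.H88.CentM22
end

-- part: H88/FixSyl
section
/-!
# Fixed points of elements generating a Sylow subgroup (helper88)

* `fix_dvd` : in a transitive action the normaliser of a Sylow subgroup `⟨y⟩` of prime order is transitive on its fixed
  points, so their number divides `|N(⟨y⟩)|`;
* `fix_modEq` : the fixed points of `y` modulo `r` for a commuting element of prime order `r`.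
-/

set_option autoImplicit false

namespace Cfsg.Agent.H88.FixSyl

open Subgroup MulAction

variable {G X : Type*} [Group G] [MulAction G X] [Finite G]

theorem exists_normalizer (hX : IsPretransitive G X) {p : ℕ} (hp : p.Prime) {P : Subgroup G} (hP : Nat.card P = p)
    (hp2 : ¬ p ^ 2 ∣ Nat.card G) {a b : X} (ha : ∀ y ∈ P, y • a = a) (hb : ∀ y ∈ P, y • b = b) :
    ∃ n ∈ normalizer (P : Set G), n • a = b := by
  have hf : Fact p.Prime := ⟨hp⟩
  obtain ⟨g, hg⟩ := hX.exists_smul_eq a b
  have hPb : P ≤ stabilizer G b := fun y hy => hb y hy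
  have hQb : P.map (MulAut.conj g).toMonoidHom ≤ stabilizer G b := by
    rintro _ ⟨y, hy, rfl⟩
    change (g * y * g⁻¹) • b = b
    rw [mul_smul, mul_smul, ← hg, inv_smul_smul, ha y hy]
  have hp2' : ¬ p ^ 2 ∣ Nat.card (stabilizer G b) := fun h => hp2 (h.trans (card_subgroup_dvd_card _))
  have h1 : Nat.card (P.subgroupOf (stabilizer G b)) = p := by
    rw [Nat.card_congr (subgroupOfEquivOfLe hPb).toEquiv, hP]
  have h2 : Nat.card ((P.map (MulAut.conj g).toMonoidHom).subgroupOf (stabilizer G b)) = p := by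
    rw [Nat.card_congr (subgroupOfEquivOfLe hQb).toEquiv,
      ← Nat.card_congr (P.equivMapOfInjective _ (MulAut.conj g).injective).toEquiv, hP]
  obtain ⟨S1, hS1⟩ := H970.StabK.exists_sylow h1 hp2'
  obtain ⟨S2, hS2⟩ := H970.StabK.exists_sylow h2 hp2'
  obtain ⟨h, hh⟩ := _root_.MulAction.exists_smul_eq (stabilizer G b) S2 S1
  have key : ∀ y ∈ P, (h : G) * (g * y * g⁻¹) * (h : G)⁻¹ ∈ P := by
    intro y hy
    have h3 : (⟨g * y * g⁻¹, hQb ⟨y, hy, rfl⟩⟩ : stabilizer G b) ∈ (S2 : Subgroup (stabilizer G b)) := by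
      rw [hS2]
      exact ⟨y, hy, rfl⟩
    have h4 : h * (⟨g * y * g⁻¹, hQb ⟨y, hy, rfl⟩⟩ : stabilizer G b) * h⁻¹ ∈ (S1 : Subgroup (stabilizer G b)) := by
      rw [← hh]
      exact ⟨_, h3, rfl⟩
    rw [hS1] at h4
    exact h4
  refine ⟨h * g, ?_, ?_⟩
  · rw [mem_normalizer_iff_map_conj_eq]
    apply Subgroup.eq_of_le_of_card_ge
    · rintro _ ⟨y, hy, rfl⟩
      have h3 := key y hy
      have h4 : (h : G) * (g * y * g⁻¹) * (h : G)⁻¹ = (MulAut.conj ((h : G) * g)) y := by
        rw [MulAut.conj_apply]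
        group
      rw [h4] at h3
      exact h3
    · exact (Nat.card_congr (P.equivMapOfInjective _ (MulAut.conj ((h : G) * g)).injective).toEquiv).le
  · rw [mul_smul, hg]
    exact h.2

theorem fix_dvd (hX : IsPretransitive G X) {p : ℕ} (hp : p.Prime) {y : G} (hy : orderOf y = p)
    (hp2 : ¬ p ^ 2 ∣ Nat.card G) (hne : ∃ a : X, y • a = a) :
    Nat.card {a : X // y • a = a} ∣ Nat.card (normalizer ((zpowers y : Subgroup G) : Set G)) := by
  obtain ⟨a, ha⟩ := hne
  have hP : Nat.card (zpowers y) = p := by rw [Nat.card_zpowers, hy]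
  have hfix : ∀ b : X, y • b = b ↔ ∀ z ∈ zpowers y, z • b = b := by
    intro b
    constructor
    · intro hb
      have : zpowers y ≤ stabilizer G b := by
        rw [zpowers_le]
        exact hb
      exact fun z hz => this hz
    · intro h
      exact h y (mem_zpowers y)
  have h1 : (orbit (normalizer ((zpowers y : Subgroup G) : Set G)) a) = {b : X | y • b = b} := by
    ext b
    constructor
    · rintro ⟨⟨n, hn⟩, rfl⟩
      change y • n • a = n • a
      have h2 : n⁻¹ * y * n ∈ zpowers y := by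
        have h3 := (mem_normalizer_iff.1 (inv_mem hn) y).1 (mem_zpowers y)
        rwa [inv_inv] at h3
      have h3 := (hfix a).1 ha _ h2
      rw [mul_smul, mul_smul, inv_smul_eq_iff] at h3
      exact h3
    · intro hb
      obtain ⟨n, hn, hnb⟩ := exists_normalizer hX hp hP hp2 ((hfix a).1 ha) ((hfix b).1 hb)
      exact ⟨⟨n, hn⟩, hnb⟩
  have h2 : Nat.card {a : X // y • a = a} = (orbit (normalizer ((zpowers y : Subgroup G) : Set G)) a).ncard := by
    rw [h1]
    rfl
  rw [h2, ← Nat.card_coe_set_eq, Nat.card_congr (orbitEquivQuotientStabilizer _ a)]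
  exact card_quotient_dvd_card _

omit [Finite G] in
theorem fix_modEq [Finite X] {x y : G} {r : ℕ} (hr : r.Prime) (hx : x ^ r = 1) (hc : x * y = y * x) :
    Nat.card {a : X // y • a = a} ≡ Nat.card {a : X // y • a = a ∧ x • a = a} [MOD r] := by
  classical
  have hf : Fact r.Prime := ⟨hr⟩
  have : Fintype X := Fintype.ofFinite X
  let f : Function.End {a : X // y • a = a} := fun a => ⟨x • a.1, by rw [← mul_smul, ← hc, mul_smul, a.2]⟩
  have hfp : ∀ n : ℕ, ∀ a, ((f ^ n) a).1 = x ^ n • a.1 := by
    intro n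
    induction n with
    | zero =>
      intro a
      rw [pow_zero, pow_zero, one_smul]
      rfl
    | succ n ih =>
      intro a
      rw [pow_succ, pow_succ, mul_smul]
      exact ih (f a)
  have hf1 : f ^ r ^ 1 = 1 := by
    funext a
    apply Subtype.ext
    rw [hfp, pow_one, hx, one_smul]
    rfl
  have h1 := Equiv.Perm.card_fixedPoints_modEq hf1
  rw [Nat.card_eq_fintype_card]
  refine h1.trans ?_
  have h2 : Fintype.card f.fixedPoints = Nat.card {a : X // y • a = a ∧ x • a = a} := by
    rw [← Nat.card_eq_fintype_card]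
    refine Nat.card_congr
      { toFun := fun a => ⟨a.1.1, a.1.2, congrArg Subtype.val a.2⟩
        invFun := fun a => ⟨⟨a.1, a.2.1⟩, Subtype.ext a.2.2⟩
        left_inv := fun _ => rfl
        right_inv := fun _ => rfl }
  rw [h2]

end Cfsg.Agent.H88.FixSyl
end

-- part: H88/SysRows
section
/-!
# The small and sporadic 2-transitive groups have no TI family (helper88)
-/

set_option autoImplicit false
set_option linter.unusedSectionVars false

namespace Cfsg.Agent.H88.SysRows

open Subgroup MulAction Cfsg.Agent.H360.ON SysNum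

section basic

variable {G : Type*} [Group G] [Finite G] {T : Subgroup G}

/-- the order of `G` -/
theorem card_cases {o : ℕ} (ho : o = 1 ∨ o.Prime) (h : Nat.card G ∣ Nat.card T * o) :
    Nat.card G = Nat.card T ∨ Nat.card G = Nat.card T * o := by
  obtain ⟨k, hk⟩ := T.card_subgroup_dvd_card
  have hT : 0 < Nat.card T := Nat.card_pos
  rw [hk] at h ⊢
  have h1 := Nat.dvd_of_mul_dvd_mul_left hT h
  rcases ho with rfl | ho
  · left; rw [Nat.dvd_one.1 h1, mul_one]
  · rcases (Nat.dvd_prime ho).1 h1 with rfl | rfl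
    · left; rw [mul_one]
    · right; rfl

omit [Finite G] in
/-- centralisers in `G` and in a normal subgroup -/
theorem card_cent (hT : T.Normal) {r c : ℕ} (hr : r.Prime) (hi : ¬ r ∣ T.index)
    (hc : ∀ x : T, orderOf x = r → Nat.card (centralizer ({x} : Set T)) ∣ c) (x : G) (hx : orderOf x = r) :
    Nat.card (centralizer ({x} : Set G)) ∣ c * T.index := by
  have hxT : x ∈ T := by
    have h1 : orderOf (QuotientGroup.mk x : G ⧸ T) ∣ r := by
      rw [← hx]
      exact orderOf_map_dvd (QuotientGroup.mk' T) x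
    have h2 : orderOf (QuotientGroup.mk x : G ⧸ T) ∣ T.index := by
      rw [Subgroup.index_eq_card]
      exact _root_.orderOf_dvd_natCard _
    rcases (Nat.dvd_prime hr).1 h1 with h3 | h3
    · rw [orderOf_eq_one_iff, QuotientGroup.eq_one_iff] at h3
      exact h3
    · rw [h3] at h2
      exact absurd h2 hi
  have h1 := (T.subgroupOf (centralizer ({x} : Set G))).card_mul_index
  have h2 : T.relIndex (centralizer ({x} : Set G)) ∣ T.index := relIndex_dvd_index_of_normal T _
  have h3 : Nat.card (T.subgroupOf (centralizer ({x} : Set G))) ∣ c := by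
    refine dvd_trans ?_ (hc ⟨x, hxT⟩ (by rw [← hx]; exact (Subgroup.orderOf_mk x hxT)))
    let f : T.subgroupOf (centralizer ({x} : Set G)) →* centralizer ({(⟨x, hxT⟩ : T)} : Set T) :=
      { toFun := fun g => ⟨⟨g.1.1, g.2⟩, by
          rw [mem_centralizer_singleton_iff]
          exact Subtype.ext (mem_centralizer_singleton_iff.1 g.1.2)⟩
        map_one' := rfl
        map_mul' := fun _ _ => rfl }
    apply card_dvd_of_injective f
    intro g g' h
    have h4 := congrArg (fun t : centralizer ({(⟨x, hxT⟩ : T)} : Set T) => ((t : T) : G)) h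
    exact Subtype.ext (Subtype.ext h4)
  rw [← h1]
  exact mul_dvd_mul h3 h2

end basic

variable {G X : Type*} [Group G] [MulAction G X] [Finite G] [Finite X] [FaithfulSMul G X] {N : X → Subgroup G}
  {T : Subgroup G}

theorem alt5 (S : Sys N) (hX : Nat.card X = 5) (hT : Nat.card T = 60) (h : Nat.card G ∣ Nat.card T * 2) : False := by
  rcases card_cases (Or.inr Nat.prime_two) h with h1 | h1 <;> rw [hT] at h1
  · refine not_sys_sq S (gab := 3) hX (by norm_num) (by rw [h1]) (by norm_num) ?_
    intro β hβ hd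
    have := Nat.le_of_dvd (by norm_num) hd
    nlinarith only [hβ, this]
  · refine not_sys_sq S (gab := 6) hX (by norm_num) (by rw [h1]) (by norm_num) ?_
    intro β hβ hd
    have := Nat.le_of_dvd (by norm_num) hd
    have h2 : β = 2 := by nlinarith only [hβ, this]
    rw [h2] at hd
    norm_num at hd

theorem psl28 (S : Sys N) (hX : Nat.card X = 28) (hT : Nat.card T = 504) (h : Nat.card G ∣ Nat.card T * 3) : False := by
  rcases card_cases (Or.inr Nat.prime_three) h with h1 | h1 <;> rw [hT] at h1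
  · obtain ⟨a, b, hab, -⟩ := S.nsr
    have h3 := card_G S a
    rw [h1, hX, card_stab S hab, hX] at h3
    omega
  · refine not_sys_sq S (gab := 2) hX (by norm_num) (by rw [h1]) (by norm_num) ?_
    intro β hβ hd
    have := Nat.le_of_dvd (by norm_num) hd
    nlinarith only [hβ, this]

theorem psl211 (S : Sys N) (hX : Nat.card X = 11) (hT : Nat.card T = 660) (h : Nat.card G ∣ Nat.card T * 2) :
    False := by
  rcases card_cases (Or.inr Nat.prime_two) h with h1 | h1 <;> rw [hT] at h1
  · exact not_sys_k S (ga := 60) (gab := 6) (r := 5) (k := 2) (B := 2) hX (by rw [h1]) (by norm_num) (by norm_num)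
      (by norm_num) (by norm_num) (by norm_num) (by norm_num) (by norm_num) (by decide) (by norm_num) t_l11
  · exact not_sys_k S (ga := 120) (gab := 12) (r := 5) (k := 2) (B := 3) hX (by rw [h1]) (by norm_num) (by norm_num)
      (by norm_num) (by norm_num) (by norm_num) (by norm_num) (by norm_num) (by decide) (by norm_num) t_l11'

theorem a7 (S : Sys N) (hX : Nat.card X = 15) (hT : Nat.card T = 2520) (h : Nat.card G ∣ Nat.card T * 2) : False := by
  rcases card_cases (Or.inr Nat.prime_two) h with h1 | h1 <;> rw [hT] at h1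
  · exact not_sys_k S (ga := 168) (gab := 12) (r := 7) (k := 2) (B := 3) hX (by rw [h1]) (by norm_num) (by norm_num)
      (by norm_num) (by norm_num) (by norm_num) (by norm_num) (by norm_num) (by decide) (by norm_num) t_a7
  · exact not_sys_k S (ga := 336) (gab := 24) (r := 7) (k := 2) (B := 4) hX (by rw [h1]) (by norm_num) (by norm_num)
      (by norm_num) (by norm_num) (by norm_num) (by norm_num) (by norm_num) (by decide) (by norm_num) t_a7'

theorem m11 (S : Sys N) (hX : Nat.card X = 11) (hT : Nat.card T = 7920) (h : Nat.card G ∣ Nat.card T * 1) : False := by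
  rcases card_cases (Or.inl rfl) h with h1 | h1 <;> rw [hT] at h1 <;>
  exact not_sys_k S (ga := 720) (gab := 72) (r := 5) (k := 2) (B := 8) hX (by rw [h1]) (by norm_num) (by norm_num)
      (by norm_num) (by norm_num) (by norm_num) (by norm_num) (by norm_num) (by decide) (by norm_num) t_m11

theorem m11' (S : Sys N) (hX : Nat.card X = 12) (hT : Nat.card T = 7920) (h : Nat.card G ∣ Nat.card T * 1) :
    False := by
  rcases card_cases (Or.inl rfl) h with h1 | h1 <;> rw [hT] at h1 <;>
  exact not_sys_k S (ga := 660) (gab := 60) (r := 11) (k := 1) (B := 7) hX (by rw [h1]) (by norm_num) (by norm_num)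
      (by norm_num) (by norm_num) (by norm_num) (by norm_num) (by norm_num) (by decide) (by norm_num) t_m11'

theorem m12 (S : Sys N) (hX : Nat.card X = 12) (hT : Nat.card T = 95040) (h : Nat.card G ∣ Nat.card T * 2) :
    False := by
  rcases card_cases (Or.inr Nat.prime_two) h with h1 | h1 <;> rw [hT] at h1
  · exact not_sys_k S (ga := 7920) (gab := 720) (r := 11) (k := 1) (B := 26) hX (by rw [h1]) (by norm_num)
      (by norm_num) (by norm_num) (by norm_num) (by norm_num) (by norm_num) (by norm_num) (by decide) (by norm_num)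
      t_m12
  · exact not_sys_k S (ga := 15840) (gab := 1440) (r := 11) (k := 1) (B := 37) hX (by rw [h1]) (by norm_num)
      (by norm_num) (by norm_num) (by norm_num) (by norm_num) (by norm_num) (by norm_num) (by decide) (by norm_num)
      t_m12'

theorem m23 (S : Sys N) (hX : Nat.card X = 23) (hT : Nat.card T = 10200960) (h : Nat.card G ∣ Nat.card T * 1) :
    False := by
  rcases card_cases (Or.inl rfl) h with h1 | h1 <;> rw [hT] at h1 <;>
  exact not_sys_k S (ga := 443520) (gab := 20160) (r := 11) (k := 2) (B := 141) hX (by rw [h1]) (by norm_num)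
    (by norm_num) (by norm_num) (by norm_num) (by norm_num) (by norm_num) (by norm_num) (by decide) (by norm_num) t_m23

theorem m24 (S : Sys N) (hX : Nat.card X = 24) (hT : Nat.card T = 244823040) (h : Nat.card G ∣ Nat.card T * 1) :
    False := by
  rcases card_cases (Or.inl rfl) h with h1 | h1 <;> rw [hT] at h1 <;>
  exact not_sys_k S (ga := 10200960) (gab := 443520) (r := 23) (k := 1) (B := 665) hX (by rw [h1]) (by norm_num)
    (by norm_num) (by norm_num) (by norm_num) (by norm_num) (by norm_num) (by norm_num) (by decide) (by norm_num) t_m24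

/-- the index -/
theorem index_of {o n : ℕ} (ho : Nat.card G = n * o) (hn : Nat.card T = n) (hn0 : 0 < n) : T.index = o := by
  have := T.card_mul_index
  rw [ho, hn] at this
  exact Nat.eq_of_mul_eq_mul_left hn0 this

omit [Finite G] [FaithfulSMul G X] in
theorem exists_fixed {x : G} {r : ℕ} (hr : r.Prime) (hx : orderOf x = r) (hX : ¬ r ∣ Nat.card X) :
    ∃ a : X, x • a = a := by
  have hf : Fact r.Prime := ⟨hr⟩
  have hp : IsPGroup r (zpowers x) := IsPGroup.of_card (n := 1) (by rw [Nat.card_zpowers, hx, pow_one])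
  obtain ⟨a, ha⟩ := hp.nonempty_fixed_point_of_prime_not_dvd_card X hX
  exact ⟨a, ha ⟨x, mem_zpowers x⟩⟩

/-- an element of prime order `r` fixes exactly one point if `r` divides neither `|X|` nor `|G_ab|` -/
theorem exists_unique_fixed (S : Sys N) {x : G} {r n gab : ℕ} (hr : r.Prime) (hx : orderOf x = r)
    (hX : Nat.card X = n) (hn2 : 2 ≤ n) (hn : ¬ r ∣ n) (hG : Nat.card G = n * ((n - 1) * gab)) (hg : ¬ r ∣ gab) :
    ∃ a : X, x • a = a ∧ ∀ b, b ≠ a → x • b ≠ b := by
  obtain ⟨a, ha⟩ := exists_fixed hr hx (by rw [hX]; exact hn)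
  refine ⟨a, ha, fun b hba hb => hg ?_⟩
  have h3 := card_G S a
  rw [hG, hX, card_stab S hba.symm, hX] at h3
  have h4 := Nat.eq_of_mul_eq_mul_left (by omega) (Nat.eq_of_mul_eq_mul_left (by omega) h3)
  rw [h4, ← hx]
  exact Subgroup.orderOf_dvd_natCard _ (show x ∈ stabilizer G a ⊓ stabilizer G b from ⟨ha, hb⟩)

omit [Finite G] in
theorem orderOf_coe' (x : T) : orderOf (x : G) = orderOf x := Subgroup.orderOf_coe x

/-- centralisers in a subgroup -/
theorem card_cent_sub (x : T) : Nat.card (centralizer ({x} : Set T)) ∣ Nat.card (centralizer ({(x : G)} : Set G)) := by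
  let f : centralizer ({x} : Set T) →* centralizer ({(x : G)} : Set G) :=
    { toFun := fun g => ⟨g.1, mem_centralizer_singleton_iff.2 (congrArg Subtype.val
        (mem_centralizer_singleton_iff.1 g.2))⟩
      map_one' := rfl
      map_mul' := fun _ _ => rfl }
  apply card_dvd_of_injective f
  intro g g' h
  have h4 := congrArg (fun t : centralizer ({(x : G)} : Set G) => (t : G)) h
  exact Subtype.ext (Subtype.ext h4)

theorem m22 (S : Sys N) (hn : T.Normal) [IsSimpleGroup T] (hna : ¬ ∀ x y : T, x * y = y * x) (hX : Nat.card X = 22)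
    (hT : Nat.card T = 443520) (h : Nat.card G ∣ Nat.card T * 2) : False := by
  have key : ∀ gab, Nat.card G = 22 * ((22 - 1) * gab) → ¬ 7 ∣ gab → ∀ x : T, orderOf x = 7 →
      Nat.card (centralizer ({x} : Set T)) ∣ 7 := by
    intro gab hG h7 x hx
    have hx' : orderOf (x : G) = 7 := by rw [orderOf_coe', hx]
    obtain ⟨a, ha, hu⟩ := exists_unique_fixed S (by norm_num) hx' hX (by norm_num) (by norm_num) hG h7
    have h1 := card_cent_dvd (r := 7) (k := 3) (by norm_num) hx' ha hu (by rw [hX])
    have h2 := (card_cent_sub x).trans h1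
    have h3 : Nat.card (centralizer ({x} : Set T)) ∣ 443520 := by
      rw [← hT]
      exact card_subgroup_dvd_card _
    have h4 := Nat.dvd_gcd h2 h3
    have h5 : Nat.gcd (7 ^ 3 * Nat.factorial 3) 443520 = 42 := by decide
    rw [h5] at h4
    rw [CentM22.card_cent hna hT hx h4]
  rcases card_cases (Or.inr Nat.prime_two) h with h1 | h1
  · have hi := index_of (o := 1) (by rw [h1, hT]) hT (by norm_num)
    rw [hT] at h1
    have hc := card_cent hn (r := 7) (c := 7) (by norm_num) (by rw [hi]; norm_num)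
      (key 960 (by rw [h1]) (by norm_num))
    rw [hi] at hc
    exact not_sys_c S (ga := 20160) (gab := 960) (r := 7) (c := 7) (B := 30) hX (by norm_num) (by rw [h1])
      (by norm_num) (by norm_num) (by norm_num) (by norm_num) (by norm_num) hc (by norm_num) (by norm_num)
      (by norm_num) t_m22
  · have hi := index_of (o := 2) (by rw [h1, hT]) hT (by norm_num)
    rw [hT] at h1
    have hc := card_cent hn (r := 7) (c := 7) (by norm_num) (by rw [hi]; norm_num)
      (key 1920 (by rw [h1]) (by norm_num))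
    rw [hi] at hc
    exact not_sys_c S (ga := 40320) (gab := 1920) (r := 7) (c := 14) (B := 43) hX (by norm_num) (by rw [h1])
      (by norm_num) (by norm_num) (by norm_num) (by norm_num) (by norm_num) hc (by norm_num) (by norm_num)
      (by norm_num) t_m22'

theorem hs (S : Sys N) (hn : T.Normal) (hc5 : ∀ x : T, orderOf x = 7 → ¬ 5 ∣ Nat.card (centralizer ({x} : Set T)))
    (hX : Nat.card X = 176) (hT : Nat.card T = 44352000) (h : Nat.card G ∣ Nat.card T * 2) : False := by
  have key : ∀ x : T, orderOf x = 7 → Nat.card (centralizer ({x} : Set T)) ∣ 354816 := by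
    intro x hx
    have h3 : Nat.card (centralizer ({x} : Set T)) ∣ 5 ^ 3 * 354816 := by
      have h4 : Nat.card (centralizer ({x} : Set T)) ∣ Nat.card T := card_subgroup_dvd_card _
      rw [hT] at h4
      exact h4
    refine Nat.Coprime.dvd_of_dvd_mul_left ?_ h3
    apply Nat.Coprime.pow_right
    exact ((Nat.Prime.coprime_iff_not_dvd (by norm_num)).2 (hc5 x hx)).symm
  rcases card_cases (Or.inr Nat.prime_two) h with h1 | h1
  · have hi := index_of (o := 1) (by rw [h1, hT]) hT (by norm_num)
    rw [hT] at h1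
    have hc := card_cent hn (r := 7) (by norm_num) (by rw [hi]; norm_num) key
    rw [hi] at hc
    exact not_sys_c S (ga := 252000) (gab := 1440) (r := 7) (c := 354816) (B := 37) hX (by norm_num) (by rw [h1])
      (by norm_num) (by norm_num) (by norm_num) (by norm_num) (by norm_num) hc (by norm_num) (by norm_num)
      (by norm_num) t_hs
  · have hi := index_of (o := 2) (by rw [h1, hT]) hT (by norm_num)
    rw [hT] at h1
    have hc := card_cent hn (r := 7) (by norm_num) (by rw [hi]; norm_num) key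
    rw [hi] at hc
    exact not_sys_c S (ga := 504000) (gab := 2880) (r := 7) (c := 709632) (B := 53) hX (by norm_num) (by rw [h1])
      (by norm_num) (by norm_num) (by norm_num) (by norm_num) (by norm_num) hc (by norm_num) (by norm_num)
      (by norm_num) t_hs'

/-- commuting elements of prime order -/
theorem exists_comm {x : G} {r : ℕ} (hr : r.Prime) (h : r ∣ Nat.card (centralizer ({x} : Set G))) :
    ∃ z : G, orderOf z = r ∧ x * z = z * x := by
  have hf : Fact r.Prime := ⟨hr⟩
  obtain ⟨z, hz⟩ := exists_prime_orderOf_dvd_card' r h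
  exact ⟨z, by rw [← hz, Subgroup.orderOf_coe], (mem_centralizer_singleton_iff.1 z.2).symm⟩

theorem dvd_cent {x z : G} (h : x * z = z * x) : orderOf x ∣ Nat.card (centralizer ({z} : Set G)) :=
  Subgroup.orderOf_dvd_natCard _ (mem_centralizer_singleton_iff.2 h)

theorem co3 (S : Sys N) (hn : T.Normal)
    (hc5 : ∀ x : T, orderOf x = 5 → Nat.card (centralizer ({x} : Set T)) ∣ 2 ^ 5 * 3 * 5 ^ 3)
    (hX : Nat.card X = 276) (hT : Nat.card T = 495766656000) (h : Nat.card G ∣ Nat.card T * 1) : False := by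
  have h1 : Nat.card G = 495766656000 := by
    rcases card_cases (Or.inl rfl) h with h1 | h1 <;> rw [hT] at h1 <;> exact h1
  have hi := index_of (o := 1) (by rw [h1]) hT (by norm_num)
  have hG5 := card_cent hn (r := 5) (by norm_num) (by rw [hi]; norm_num) hc5
  rw [hi] at hG5
  have htr : IsPretransitive G X := by
    refine ⟨fun x y => ?_⟩
    by_cases hxy : x = y
    · exact ⟨1, by rw [hxy, one_smul]⟩
    · obtain ⟨g, h, -⟩ := S.two x y y x hxy (Ne.symm hxy)
      exact ⟨g, h⟩
  have no5 : ∀ x : G, orderOf x = 11 → ¬ 5 ∣ Nat.card (centralizer ({x} : Set G)) := by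
    intro x hx h5
    obtain ⟨z, hz, hxz⟩ := exists_comm (by norm_num) h5
    have h2 := (dvd_cent hxz).trans (hG5 z hz)
    rw [hx] at h2
    norm_num at h2
  have no7 : ∀ x : G, orderOf x = 11 → ¬ 7 ∣ Nat.card (centralizer ({x} : Set G)) := by
    intro x hx h7
    obtain ⟨y, hy, hxy⟩ := exists_comm (by norm_num) h7
    obtain ⟨a, ha, hu⟩ := exists_unique_fixed S (by norm_num) hx hX (by norm_num) (by norm_num)
      (show Nat.card G = 276 * ((276 - 1) * 6531840) by rw [h1]) (by norm_num)
    have hya : y • a = a := by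
      by_contra hya
      apply hu _ hya
      rw [← mul_smul, hxy, mul_smul, ha]
    have hc11 := FixSyl.fix_modEq (X := X) (r := 11) (by norm_num) (by rw [← hx]; exact pow_orderOf_eq_one x) hxy
    have hc7 := FixSyl.fix_modEq (X := X) (y := (1 : G)) (r := 7) (by norm_num)
      (by rw [← hy]; exact pow_orderOf_eq_one y) (by rw [mul_one, one_mul])
    have e1 : Nat.card {b : X // y • b = b ∧ x • b = b} = 1 := by
      rw [Nat.card_eq_one_iff_unique]
      refine ⟨⟨fun b c => Subtype.ext ?_⟩, ⟨⟨a, hya, ha⟩⟩⟩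
      have hb : b.1 = a := by
        by_contra hb
        exact hu _ hb b.2.2
      have hc : c.1 = a := by
        by_contra hc
        exact hu _ hc c.2.2
      rw [hb, hc]
    have e2 : Nat.card {b : X // (1 : G) • b = b} = 276 := by
      rw [← hX]
      exact Nat.card_congr ⟨fun b => b.1, fun b => ⟨b, one_smul _ _⟩, fun _ => rfl, fun _ => rfl⟩
    have e3 : Nat.card {b : X // (1 : G) • b = b ∧ y • b = b} = Nat.card {b : X // y • b = b} :=
      Nat.card_congr ⟨fun b => ⟨b.1, b.2.2⟩, fun b => ⟨b.1, one_smul _ _, b.2⟩, fun _ => rfl, fun _ => rfl⟩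
    rw [e1] at hc11
    rw [e2, e3] at hc7
    have hle : Nat.card {b : X // y • b = b} ≤ 276 := by
      rw [← hX]
      exact Nat.card_le_card_of_injective _ Subtype.val_injective
    have hne : Nat.card {b : X // y • b = b} ≠ 276 := by
      intro h276
      have h2 : Function.Bijective (Subtype.val : {b : X // y • b = b} → X) :=
        (Nat.bijective_iff_injective_and_card _).2 ⟨Subtype.val_injective, h276.trans hX.symm⟩
      have h3 : y = 1 := by
        apply FaithfulSMul.eq_of_smul_eq_smul (α := X)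
        intro b
        obtain ⟨c, rfl⟩ := h2.2 b
        rw [one_smul, c.2]
      rw [h3, orderOf_one] at hy
      norm_num at hy
    have hd := FixSyl.fix_dvd htr (by norm_num) hy (by rw [h1]; norm_num) ⟨a, hya⟩
    have hd2 := hd.trans (card_subgroup_dvd_card _)
    rw [h1] at hd2
    have hd3 := hd.trans (SysNum.card_normalizer_dvd (r := 7) (by norm_num) (by rw [Nat.card_zpowers, hy]))
    have hC : Nat.card (centralizer ((zpowers y : Subgroup G) : Set G)) = Nat.card (centralizer ({y} : Set G)) := by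
      rw [zpowers_eq_closure, centralizer_closure]
    rw [hC] at hd3
    generalize Nat.card {b : X // y • b = b} = F at *
    have h45 : F = 45 ∨ F = 122 ∨ F = 199 := by
      have h2 : 276 % 7 = F % 7 := hc7
      have h3 : F % 11 = 1 % 11 := hc11
      (clear * - hle hne h2 h3; (solve | lia | omega))
    rcases h45 with rfl | rfl | rfl
    · have h5 : 5 ∣ Nat.card (centralizer ({y} : Set G)) := by
        have h6 : 5 ∣ (7 - 1) * Nat.card (centralizer ({y} : Set G)) := (by norm_num : 5 ∣ 45).trans hd3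
        rcases (Nat.Prime.dvd_mul (by norm_num)).1 h6 with h7 | h7
        · norm_num at h7
        · exact h7
      obtain ⟨z, hz, hyz⟩ := exists_comm (by norm_num) h5
      have h2 := (dvd_cent hyz).trans (hG5 z hz)
      rw [hy] at h2
      norm_num at h2
    · norm_num at hd2
    · norm_num at hd2
  refine not_sys_c S (ga := 1796256000) (gab := 6531840) (r := 11) (c := 566590464) (B := 2555) hX (by norm_num)
    (by rw [h1]) (by norm_num) (by norm_num) (by norm_num) (by norm_num) (by norm_num) ?_ (by norm_num) (by norm_num)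
    (by norm_num) t_co3
  intro x hx
  have h3 : Nat.card (centralizer ({x} : Set G)) ∣ 5 ^ 3 * (7 * 566590464) := by
    have h4 : Nat.card (centralizer ({x} : Set G)) ∣ Nat.card G := card_subgroup_dvd_card _
    rw [h1] at h4
    exact h4
  refine Nat.Coprime.dvd_of_dvd_mul_left ?_ (Nat.Coprime.dvd_of_dvd_mul_left ?_ h3)
  · exact ((Nat.Prime.coprime_iff_not_dvd (by norm_num)).2 (no7 x hx)).symm
  · apply Nat.Coprime.pow_right
    exact ((Nat.Prime.coprime_iff_not_dvd (by norm_num)).2 (no5 x hx)).symm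

end Cfsg.Agent.H88.SysRows
end

-- part: H88/SpForm
section
/-!
# Quadratic forms over the field with two elements polarising to the symplectic form (helper88)

* `exists_y` : vectors with prescribed products and `Q = 1`;
* `Rel.univ` : a nontrivial equivalence relation on `{v | Q v = 1}` invariant under the transvections is universal;
* `exists_two` : two such quadratic forms have two common non-singular vectors.
-/

set_option autoImplicit false

namespace Cfsg.Agent.H88.SpForm

open Cfsg Cfsg.Agent.ClassicalGeometry.SympBasic Module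

variable {F : Type*} [Field F] {m : ℕ}

local notation "V" => (Fin m ⊕ Fin m → F)
local notation "f" => sympForm m F

/-- the symplectic form as a bilinear form -/
noncomputable abbrev B (m : ℕ) (F : Type*) [Field F] : LinearMap.BilinForm F (Fin m ⊕ Fin m → F) := sympBilin m F

/-- `y ↦ (f (z i) y)` -/
def L {k : ℕ} (z : Fin k → V) : V →ₗ[F] (Fin k → F) := LinearMap.pi fun i => sympBilin m F (z i)

theorem ker_L {k : ℕ} (z : Fin k → V) :
    LinearMap.ker (L z) = (B m F).orthogonal (Submodule.span F (Set.range z)) := by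
  ext y
  rw [LinearMap.mem_ker, LinearMap.BilinForm.mem_orthogonal_iff]
  constructor
  · intro h n hn
    change sympBilin m F n y = 0
    induction hn using Submodule.span_induction with
    | mem x hx =>
      obtain ⟨i, rfl⟩ := hx
      exact congrFun h i
    | zero => rw [map_zero, LinearMap.zero_apply]
    | add x y' _ _ hx hy => rw [map_add, LinearMap.add_apply, hx, hy, add_zero]
    | smul c x _ hx => rw [map_smul, LinearMap.smul_apply, hx, smul_zero]
  · intro h
    funext i
    exact h (z i) (Submodule.subset_span ⟨i, rfl⟩)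

theorem finrank_ker {k : ℕ} {z : Fin k → V} (hz : LinearIndependent F z) :
    finrank F (LinearMap.ker (L z)) = 2 * m - k := by
  rw [ker_L, LinearMap.BilinForm.finrank_orthogonal (by exact sympBilin_nondegenerate), finrank_span_eq_card hz,
    Fintype.card_fin, finrank_fintype_fun_eq_card, Fintype.card_sum, Fintype.card_fin, two_mul]

theorem surjective_L {k : ℕ} {z : Fin k → V} (hz : LinearIndependent F z) : Function.Surjective (L z) := by
  rw [← LinearMap.range_eq_top]
  apply Submodule.eq_top_of_finrank_eq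
  have h1 := LinearMap.finrank_range_add_finrank_ker (L z)
  have h2 := hz.fintype_card_le_finrank
  rw [finrank_ker hz] at h1
  rw [finrank_fintype_fun_eq_card, Fintype.card_sum, Fintype.card_fin] at h1 h2
  rw [Fintype.card_fin] at h2
  rw [finrank_fintype_fun_eq_card, Fintype.card_fin]
  omega

/-- `ker L` is not totally isotropic -/
theorem exists_pair {k : ℕ} {z : Fin k → V} (hz : LinearIndependent F z) (hm : 3 ≤ m)
    (hk : k ≤ 2 ∨ k ≤ 3 ∧ ∃ i j, f (z i) (z j) ≠ 0) : ∃ w₁ w₂ : V, L z w₁ = 0 ∧ L z w₂ = 0 ∧ f w₁ w₂ ≠ 0 := by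
  by_contra hcon
  push Not at hcon
  have h1 : LinearMap.ker (L z) ≤ Submodule.span F (Set.range z) := by
    have h2 := LinearMap.BilinForm.orthogonal_orthogonal (B := B m F) sympBilin_nondegenerate
      (sympBilin_isAlt (m := m) (F := F)).isRefl (Submodule.span F (Set.range z))
    rw [← h2, ← ker_L]
    intro w hw
    rw [LinearMap.BilinForm.mem_orthogonal_iff]
    intro n hn
    exact hcon n w hn hw
  have h3 := Submodule.finrank_mono h1
  have h4 := finrank_span_eq_card hz
  rw [Fintype.card_fin] at h4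
  rw [finrank_ker hz, h4] at h3
  rcases hk with hk | ⟨hk, i, j, hij⟩
  · omega
  · have h5 : LinearMap.ker (L z) = Submodule.span F (Set.range z) := by
      apply Submodule.eq_of_le_of_finrank_eq h1
      rw [finrank_ker hz, h4]
      omega
    have h6 : z j ∈ LinearMap.ker (L z) := by
      rw [h5]
      exact Submodule.subset_span ⟨j, rfl⟩
    exact hij (congrFun h6 i)

section h2

variable (h2 : ∀ a : F, a = 0 ∨ a = 1)
include h2

theorem one_add_one : (1 : F) + 1 = 0 := by
  rcases h2 (1 + 1) with h | h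
  · exact h
  · exact absurd (add_eq_left.1 h) one_ne_zero

theorem add_self' (a : F) : a + a = 0 := by
  rcases h2 a with h | h
  · rw [h, add_zero]
  · rw [h, one_add_one h2]

theorem vadd_self (v : V) : v + v = 0 := by
  funext i
  exact add_self' h2 (v i)

theorem symm' (u v : V) : f u v = f v u := by
  have h := sympForm_swap (F := F) u v
  rw [h]
  exact neg_eq_of_add_eq_zero_left (add_self' h2 _)

omit h2 in
theorem ind1 {z : V} (hz : z ≠ 0) : LinearIndependent F ![z] :=
  LinearIndependent.of_subsingleton 0 hz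

theorem ind2 {z₁ z₂ : V} (h1 : z₁ ≠ 0) (h3 : z₂ ≠ 0) (h4 : z₁ ≠ z₂) : LinearIndependent F ![z₁, z₂] := by
  rw [LinearIndependent.pair_iff' h1]
  intro a h
  rcases h2 a with rfl | rfl
  · rw [zero_smul] at h
    exact h3 h.symm
  · rw [one_smul] at h
    exact h4 h

theorem ind3 {z₁ z₂ z₃ : V} (h1 : z₁ ≠ 0) (h3 : z₂ ≠ 0) (h4 : z₃ ≠ 0) (h5 : z₁ ≠ z₂) (h6 : z₁ ≠ z₃) (h7 : z₂ ≠ z₃)
    (h8 : z₁ + z₂ + z₃ ≠ 0) : LinearIndependent F ![z₁, z₂, z₃] := by
  rw [Fintype.linearIndependent_iff]
  intro g hg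
  rw [Fin.sum_univ_three] at hg
  simp only [Matrix.cons_val_zero, Matrix.cons_val_one, Matrix.cons_val] at hg
  have key : ∀ x y : V, x + y = 0 → x = y := by
    intro x y h
    rw [← add_zero x, ← vadd_self h2 y, ← add_assoc, h, zero_add]
  rcases h2 (g 0) with e0 | e0 <;> rcases h2 (g 1) with e1 | e1 <;> rcases h2 (g 2) with e2 | e2 <;>
    rw [e0, e1, e2] at hg <;> simp only [zero_smul, one_smul, zero_add, add_zero] at hg
  · intro i
    fin_cases i
    · exact e0
    · exact e1
    · exact e2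
  · exact absurd hg h4
  · exact absurd hg h3
  · exact absurd (key _ _ hg) h7
  · exact absurd hg h1
  · exact absurd (key _ _ hg) h6
  · exact absurd (key _ _ hg) h5
  · exact absurd hg h8

end h2

/-- a quadratic form polarising to the symplectic form, over the field with two elements -/
structure Qd (m : ℕ) {F : Type*} [Field F] (Q : (Fin m ⊕ Fin m → F) → F) : Prop where
  h2 : ∀ a : F, a = 0 ∨ a = 1
  hm : 3 ≤ m
  hQ : ∀ v w : Fin m ⊕ Fin m → F, Q (v + w) = Q v + Q w + sympForm m F v w

namespace Qd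

variable {Q : (Fin m ⊕ Fin m → F) → F} (q : Qd m Q)
include q

theorem exists_y {k : ℕ} {z : Fin k → V} (hz : LinearIndependent F z)
    (hk : k ≤ 2 ∨ k ≤ 3 ∧ ∃ i j, f (z i) (z j) ≠ 0) (α : Fin k → F) :
    ∃ y : V, (∀ i, f (z i) y = α i) ∧ Q y = 1 := by
  obtain ⟨y, hy⟩ := surjective_L hz α
  obtain ⟨w₁, w₂, hw₁, hw₂, hw⟩ := exists_pair hz q.hm hk
  by_contra hcon
  push Not at hcon
  have key : ∀ w : V, L z w = 0 → Q (y + w) = 0 := by
    intro w hw
    refine (q.h2 _).resolve_right (hcon _ ?_)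
    intro i
    have : L z (y + w) i = α i := by rw [map_add, hy, hw, add_zero]
    exact this
  have e0 := key 0 (map_zero _)
  have e1 := key w₁ hw₁
  have e2 := key w₂ hw₂
  have e3 := key (w₁ + w₂) (by rw [map_add, hw₁, hw₂, add_zero])
  rw [add_zero] at e0
  rw [q.hQ, e0, zero_add] at e1 e2 e3
  rw [q.hQ, sympForm_add_right] at e3
  apply hw
  calc f w₁ w₂ = (Q w₁ + Q w₂ + f w₁ w₂ + (f y w₁ + f y w₂)) - (Q w₁ + f y w₁) - (Q w₂ + f y w₂) := by ring
    _ = 0 := by rw [e1, e2, e3]; ring

theorem exists_y1 {z : V} (hz : z ≠ 0) (α : F) : ∃ y : V, f z y = α ∧ Q y = 1 := by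
  obtain ⟨y, hy, hQy⟩ := q.exists_y (ind1 hz) (Or.inl (by norm_num)) ![α]
  exact ⟨y, hy 0, hQy⟩

theorem exists_y2 {z₁ z₂ : V} (h1 : z₁ ≠ 0) (h3 : z₂ ≠ 0) (h4 : z₁ ≠ z₂) (α β : F) :
    ∃ y : V, f z₁ y = α ∧ f z₂ y = β ∧ Q y = 1 := by
  obtain ⟨y, hy, hQy⟩ := q.exists_y (ind2 q.h2 h1 h3 h4) (Or.inl le_rfl) ![α, β]
  exact ⟨y, hy 0, hy 1, hQy⟩

theorem exists_y3 {z₁ z₂ z₃ : V} (h1 : z₁ ≠ 0) (h3 : z₂ ≠ 0) (h4 : z₃ ≠ 0) (h5 : z₁ ≠ z₂) (h6 : z₁ ≠ z₃)
    (h7 : z₂ ≠ z₃) (h8 : z₁ + z₂ + z₃ ≠ 0) (h9 : f z₁ z₂ ≠ 0) (α β γ : F) :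
    ∃ y : V, f z₁ y = α ∧ f z₂ y = β ∧ f z₃ y = γ ∧ Q y = 1 := by
  obtain ⟨y, hy, hQy⟩ := q.exists_y (ind3 q.h2 h1 h3 h4 h5 h6 h7 h8) (Or.inr ⟨le_rfl, 0, 1, h9⟩) ![α, β, γ]
  exact ⟨y, hy 0, hy 1, hy 2, hQy⟩

theorem zero : Q 0 = 0 := by
  have h := q.hQ 0 0
  rw [add_zero, sympForm_self, add_zero] at h
  exact (left_eq_add.1 h)

theorem ne_zero {v : V} (h : Q v = 1) : v ≠ 0 := by
  rintro rfl
  rw [q.zero] at h
  exact zero_ne_one h

/-- the sum of two non-orthogonal non-singular vectors -/
theorem add_one {u v : V} (hu : Q u = 1) (hv : Q v = 1) (h : f u v = 1) : Q (u + v) = 1 := by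
  rw [q.hQ, hu, hv, h, one_add_one q.h2, zero_add]

/-- a nontrivial relation on `{v | Q v = 1}` -/
theorem univ {R : V → V → Prop} (hrefl : ∀ v, Q v = 1 → R v v) (hsymm : ∀ v w, Q v = 1 → Q w = 1 → R v w → R w v)
    (htrans : ∀ u v w, Q u = 1 → Q v = 1 → Q w = 1 → R u v → R v w → R u w)
    (hinv : ∀ u v w, Q u = 1 → Q v = 1 → Q w = 1 → f u v = 1 → f u w = 0 → R v w → R (u + v) w)
    {v w : V} (hv : Q v = 1) (hw : Q w = 1) (hvw : v ≠ w) (hR : R v w) : ∀ x y, Q x = 1 → Q y = 1 → R x y := by
  have hs := symm' (F := F) (m := m) q.h2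
  have hsplit : ∀ x y : V, f x y = 0 ∨ f x y = 1 := fun x y => q.h2 _
  have ne_of : ∀ {x y z : V}, f z x ≠ f z y → x ≠ y := by
    rintro x y z h rfl
    exact h rfl
  -- step 1
  obtain ⟨x, y, hx, hy, hxy, hRxy⟩ : ∃ x y : V, Q x = 1 ∧ Q y = 1 ∧ f x y = 1 ∧ R x y := by
    rcases hsplit v w with h | h
    · obtain ⟨u, hu1, hu2, hu⟩ := q.exists_y2 (q.ne_zero hv) (q.ne_zero hw) hvw 1 0
      rw [hs] at hu1 hu2
      have h1 := hinv u v w hu hv hw hu1 hu2 hR
      have h3 : Q (u + v) = 1 := q.add_one hu hv hu1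
      refine ⟨v, u + v, hv, h3, ?_, ?_⟩
      · rw [sympForm_add_right, sympForm_self, add_zero, hs, hu1]
      · exact htrans v w (u + v) hv hw h3 hR (hsymm _ _ h3 hw h1)
    · exact ⟨v, w, hv, hw, h, hR⟩
  -- step 2
  have step : ∀ v x : V, Q v = 1 → Q x = 1 → f v x = 1 → R v x → ∀ x', Q x' = 1 → f v x' = 1 → R v x' := by
    intro v x hv hx hvx hR
    have base : ∀ x x', Q x = 1 → f v x = 1 → R v x → Q x' = 1 → f v x' = 1 → f x x' = 1 → R v x' := by
      intro x x' hx hvx hR hx' hvx' hxx'
      have hz : Q (x + x') = 1 := q.add_one hx hx' hxx'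
      have h1 : f (x + x') x = 1 := by
        rw [sympForm_add_left, sympForm_self, zero_add, hs, hxx']
      have h3 : f (x + x') v = 0 := by
        rw [sympForm_add_left, hs x v, hs x' v, hvx, hvx', one_add_one q.h2]
      have h4 := hinv (x + x') x v hz hx hv h1 h3 (hsymm _ _ hv hx hR)
      have h5 : x + x' + x = x' := by
        rw [add_comm x x', add_assoc, vadd_self q.h2, add_zero]
      rw [h5] at h4
      exact hsymm _ _ hx' hv h4
    intro x' hx' hvx'
    rcases hsplit x x' with h | h
    · by_cases hxx : x = x'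
      · rw [← hxx]; exact hR
      · have h8 : v + x + x' ≠ 0 := by
          intro h0
          have h1 : f x (v + x + x') = 1 := by
            rw [sympForm_add_right, sympForm_add_right, sympForm_self, hs x v, hvx, h, add_zero, add_zero]
          rw [h0, sympForm_zero_right] at h1
          exact zero_ne_one h1
        have hvne : ∀ z, f v z = 1 → v ≠ z := by
          rintro z h1 rfl
          rw [sympForm_self] at h1
          exact zero_ne_one h1
        obtain ⟨y, hy1, hy2, hy3, hy⟩ := q.exists_y3 (q.ne_zero hv) (q.ne_zero hx) (q.ne_zero hx') (hvne x hvx)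
          (hvne x' hvx') hxx h8 (by rw [hvx]; exact one_ne_zero) 1 1 1
        have h1 := base x y hx hvx hR hy hy1 hy2
        exact base y x' hy hy1 h1 hx' hvx' (by rw [hs]; exact hy3)
    · exact base x x' hx hvx hR hx' hvx' h
  -- step 3
  have P := step x y hx hy hxy hRxy
  have key : ∀ z, Q z = 1 → R x z := by
    intro z hz
    by_cases hxz : x = z
    · rw [hxz]; exact hrefl z hz
    · obtain ⟨y', h1, h3, hy'⟩ := q.exists_y2 (q.ne_zero hx) (q.ne_zero hz) hxz 1 1
      have h4 := P y' hy' h1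
      have h5 := step y' x hy' hx (by rw [hs]; exact h1) (hsymm _ _ hx hy' h4) z hz (by rw [hs]; exact h3)
      exact htrans _ _ _ hx hy' hz h4 h5
  intro u z hu hz
  exact htrans u x z hu hx hz (hsymm _ _ hx hu (key u hu)) (key z hz)

/-- two forms have two common non-singular vectors -/
theorem exists_two {Q' : V → F} (q' : Qd m Q') : ∃ v w : V, v ≠ w ∧ Q v = 1 ∧ Q w = 1 ∧ Q' v = 1 ∧ Q' w = 1 := by
  have hs := symm' (F := F) (m := m) q.h2
  -- a triangle gives a common vector
  have tri : ∀ u v, Q u = 1 → Q v = 1 → f u v = 1 → ∃ w, (w = u ∨ w = v ∨ w = u + v) ∧ Q w = 1 ∧ Q' w = 1 := by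
    intro u v hu hv huv
    by_contra hcon
    push Not at hcon
    have h1 := (q.h2 _).resolve_right (hcon u (Or.inl rfl) hu)
    have h3 := (q.h2 _).resolve_right (hcon v (Or.inr (Or.inl rfl)) hv)
    have h4 := (q.h2 _).resolve_right (hcon (u + v) (Or.inr (Or.inr rfl)) (q.add_one hu hv huv))
    rw [q'.hQ, h1, h3, huv, zero_add, zero_add] at h4
    exact one_ne_zero h4
  obtain ⟨z, hz⟩ : ∃ z : V, z ≠ 0 := by
    have : Nonempty (Fin m) := ⟨⟨0, by have := q.hm; omega⟩⟩
    exact exists_ne 0
  obtain ⟨u, -, hu⟩ := q.exists_y1 hz 0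
  obtain ⟨v, huv, hv⟩ := q.exists_y1 (q.ne_zero hu) 1
  have hne : u ≠ v := by
    rintro rfl
    rw [sympForm_self] at huv
    exact zero_ne_one huv
  obtain ⟨u', h1, h3, hu'⟩ := q.exists_y2 (q.ne_zero hu) (q.ne_zero hv) hne 0 0
  obtain ⟨v', h4, hv'⟩ := q.exists_y1 (q.ne_zero hu') 1
  obtain ⟨w, hw1, hw2, hw3⟩ := tri u v hu hv huv
  obtain ⟨w', hw1', hw2', hw3'⟩ := tri u' v' hu' hv' h4
  refine ⟨w, w', ?_, hw2, hw2', hw3, hw3'⟩
  rintro rfl
  have e1 : f u' w = 0 := by
    rcases hw1 with rfl | rfl | rfl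
    · rw [hs]; exact h1
    · rw [hs]; exact h3
    · rw [hs, sympForm_add_left, h1, h3, add_zero]
  rcases hw1' with rfl | rfl | rfl
  · rcases hw1 with rfl | rfl | rfl
    · rw [hs, huv] at h3
      exact one_ne_zero h3
    · rw [huv] at h1
      exact one_ne_zero h1
    · rw [sympForm_add_right, sympForm_self, zero_add, huv] at h1
      exact one_ne_zero h1
  · rw [h4] at e1
    exact one_ne_zero e1
  · rw [sympForm_add_right, sympForm_self, zero_add, h4] at e1
    exact one_ne_zero e1

end Qd

end Cfsg.Agent.H88.SpForm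
end

-- part: H88/SysSp
section
/-!
# The 2-transitive groups with socle `Sp_2m(2)` have no TI family (helper88)
-/

set_option autoImplicit false

namespace Cfsg.Agent.H88.SysSp

open Subgroup MulAction Cfsg.Agent.H360.ON
open Cfsg Cfsg.Agent.H249.SpTwo Cfsg.Agent.H384.TwoTrans
open Cfsg.Agent.ClassicalGeometry.SympBasic
open Cfsg.Agent.ClassicalGeometry.SympSiegel
open Cfsg.Agent.ClassicalGeometry.SympAutExists
open Cfsg.Agent.H88.SpForm

universe u v w

variable {G : Type u} {X : Type v} [Group G] [MulAction G X] {T : Subgroup G} {N : X → Subgroup G}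
variable {F : Type w} [Field F] [Fintype F] {m : ℕ} (e : ↥T ≃* PSp m F)

/-- an element commuting with all transvections is trivial -/
theorem eq_one (A : AS G X T) (hF : Fintype.card F = 2) (hm : 3 ≤ m) (x : G)
    (h : ∀ v : Fin m ⊕ Fin m → F, v ≠ 0 → x * tr e v = tr e v * x) : x = 1 := by
  have := A.normal
  have := A.simple
  let S : Set G := {g | ∃ v : Fin m ⊕ Fin m → F, v ≠ 0 ∧ g = tr e v}
  have hST : normalClosure S ≤ T := by
    apply normalClosure_le_normal
    rintro _ ⟨v, -, rfl⟩
    exact tau_mem e _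
  have hTS : T ≤ normalClosure S := by
    have h1 : ((normalClosure S).subgroupOf T).Normal := inferInstance
    rcases h1.eq_bot_or_eq_top with h2 | h2
    · exfalso
      have : Nonempty (Fin m) := ⟨⟨0, by omega⟩⟩
      obtain ⟨v, hv⟩ := exists_ne (0 : Fin m ⊕ Fin m → F)
      apply tr_ne_one e hF (by omega) hv
      have h3 : (⟨tr e v, tau_mem e _⟩ : T) ∈ (normalClosure S).subgroupOf T :=
        subset_normalClosure ⟨v, hv, rfl⟩
      rw [h2, Subgroup.mem_bot] at h3
      exact congrArg Subtype.val h3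
    · exact subgroupOf_eq_top.1 h2
  have hc : normalClosure S ≤ centralizer {x} := by
    unfold normalClosure
    rw [closure_le]
    intro y hy
    obtain ⟨z, ⟨v, hv, rfl⟩, hz⟩ := Group.mem_conjugatesOfSet_iff.1 hy
    obtain ⟨g, rfl⟩ := isConj_iff.1 hz
    obtain ⟨w, hw, hg⟩ := exists_conj e hF hm g v hv
    rw [hg]
    exact mem_centralizer_singleton_iff.2 (h w hw).symm
  have h1 : x ∈ centralizer (T : Set G) := by
    rw [mem_centralizer_iff]
    intro t ht
    exact mem_centralizer_singleton_iff.1 (hc (hTS ht))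
  rw [A.cent, Subgroup.mem_bot] at h1
  exact h1

/-- transvections commute iff they are orthogonal -/
theorem comm_iff (hF : Fintype.card F = 2) (hm : 3 ≤ m) {u v : Fin m ⊕ Fin m → F} (hu : u ≠ 0) (hv : v ≠ 0) :
    tr e u * tr e v * (tr e u)⁻¹ = tr e v ↔ sympForm m F v u = 0 := by
  have h1 : tr e u * tr e v * (tr e u)⁻¹ = tr e (transv u 1 • v) := tau_conj e (transv u 1) v
  rw [h1, transv_smul, one_mul]
  constructor
  · intro h
    have h2 : v + sympForm m F v u • u ≠ 0 := by
      have : transv u (1 : F) • v ≠ 0 := smul_ne_zero' _ hv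
      rwa [transv_smul, one_mul] at this
    have h3 := tr_injective e hF (by omega) h2 hv h
    have h4 : sympForm m F v u • u = 0 := by
      have := h3
      rwa [add_eq_left] at this
    rcases smul_eq_zero.1 h4 with h5 | h5
    · exact h5
    · exact absurd h5 hu
  · intro h
    rw [h, zero_smul, add_zero]

include e in
theorem not_sys (S : Sys N) (A : AS G X T) (hF : Fintype.card F = 2) (hm : 3 ≤ m)
    (hn : Nat.card X = 2 ^ (m - 1) * (2 ^ m + 1) ∨ Nat.card X = 2 ^ (m - 1) * (2 ^ m - 1)) : False := by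
  have := A.normal
  have := A.finG
  have := A.finΩ
  have := A.faithful
  have h2 := F_cases (F := F) hF
  choose Q hQ1 hQ2 hQ3 using main e A hF hm hn
  have q : ∀ a, Qd m (Q a) := fun a => ⟨h2, hm, hQ1 a⟩
  have hfix : ∀ a (v : Fin m ⊕ Fin m → F), v ≠ 0 → (tr e v • a = a ↔ Q a v = 1) := hQ2
  have hs := symm' (F := F) (m := m) h2
  -- the relation is universal
  have key : ∀ a, ∀ v w, Q a v = 1 → Q a w = 1 → tr e v * (tr e w)⁻¹ ∈ N a := by
    intro a
    obtain ⟨b, hb⟩ : ∃ b : X, b ≠ a := by
      have := A.nontrivialΩ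
      exact exists_ne a
    obtain ⟨x, hx, hx1⟩ := S.exists_ne_one hb.symm
    have hxN : x ∈ N a := hx.1
    have hxa : x • a = a := S.fix a x hxN
    choose! σ hσ hg using exists_conj e hF hm x
    have hσQ : ∀ v, Q a v = 1 → Q a (σ v) = 1 := by
      intro v hv
      have hv0 := (q a).ne_zero hv
      have h1 := (hfix a v hv0).2 hv
      rw [← hfix a _ (hσ v hv0), ← hg v hv0, mul_smul, mul_smul, inv_smul_eq_iff.2 hxa.symm, h1, hxa]
    obtain ⟨v, hv, hvσ⟩ : ∃ v, Q a v = 1 ∧ σ v ≠ v := by
      by_contra hcon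
      push Not at hcon
      apply hx1
      apply eq_one e A hF hm
      -- `σ` fixes every vector
      have hall : ∀ u, u ≠ 0 → σ u = u := by
        intro u hu
        by_contra hne
        have hz : σ u + u ≠ 0 := by
          intro h0
          apply hne
          rw [← add_zero (σ u), ← vadd_self h2 u, ← add_assoc, h0, zero_add]
        obtain ⟨v, hv1, hv⟩ := (q a).exists_y1 hz 1
        rw [sympForm_add_left] at hv1
        have hv0 := (q a).ne_zero hv
        have h3 : sympForm m F (σ u) v = 0 ↔ sympForm m F u v = 0 := by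
          rw [← comm_iff e hF hm hv0 (hσ u hu), ← comm_iff e hF hm hv0 hu]
          have h4 := hg v hv0
          rw [hcon v hv] at h4
          rw [← hg u hu]
          constructor
          · intro h5
            have h6 : x⁻¹ * (tr e v * (x * tr e u * x⁻¹) * (tr e v)⁻¹) * x = x⁻¹ * (x * tr e u * x⁻¹) * x := by rw [h5]
            have h7 : x⁻¹ * (tr e v * (x * tr e u * x⁻¹) * (tr e v)⁻¹) * x =
              (x⁻¹ * tr e v * x) * tr e u * (x⁻¹ * tr e v * x)⁻¹ := by group
            have h8 : x⁻¹ * tr e v * x = tr e v := by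
              conv_lhs => rw [← h4]
              group
            rw [h7, h8] at h6
            rw [h6]
            group
          · intro h5
            have h7 : tr e v * (x * tr e u * x⁻¹) * (tr e v)⁻¹ =
              x * ((x⁻¹ * tr e v * x) * tr e u * (x⁻¹ * tr e v * x)⁻¹) * x⁻¹ := by group
            have h8 : x⁻¹ * tr e v * x = tr e v := by
              conv_lhs => rw [← h4]
              group
            rw [h7, h8, h5]
        rcases h2 (sympForm m F (σ u) v) with h5 | h5
        · rw [h5, h3.1 h5, add_zero] at hv1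
          exact zero_ne_one hv1
        · have h6 : sympForm m F u v = 1 := by
            refine (h2 _).resolve_left fun h6 => ?_
            rw [h3.2 h6] at h5
            exact zero_ne_one h5
          rw [h5, h6, one_add_one h2] at hv1
          exact zero_ne_one hv1
      intro v hv
      have h3 := hg v hv
      rw [hall v hv] at h3
      exact mul_inv_eq_iff_eq_mul.1 h3
    have hv0 := (q a).ne_zero hv
    have hva : tr e v • a = a := (hfix a v hv0).2 hv
    have hR : tr e (σ v) * (tr e v)⁻¹ ∈ N a := by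
      rw [← hg v hv0]
      have h3 : x * tr e v * x⁻¹ * (tr e v)⁻¹ = x * (tr e v * x⁻¹ * (tr e v)⁻¹) := by group
      rw [h3]
      exact mul_mem hxN (S.mem_stab_conj (inv_mem hxN) hva)
    refine (q a).univ (R := fun v w => tr e v * (tr e w)⁻¹ ∈ N a) ?_ ?_ ?_ ?_ (hσQ v hv) hv hvσ hR
    · intro v _
      rw [mul_inv_cancel]
      exact one_mem _
    · intro v w _ _ h
      have := inv_mem h
      rwa [mul_inv_rev, inv_inv] at this
    · intro u v w _ _ _ h h'
      have := mul_mem h h'
      have h3 : tr e u * (tr e v)⁻¹ * (tr e v * (tr e w)⁻¹) = tr e u * (tr e w)⁻¹ := by group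
      rwa [h3] at this
    · intro u v w hu hv hw huv huw h
      have hu0 := (q a).ne_zero hu
      have hua : tr e u • a = a := (hfix a u hu0).2 hu
      have h3 := S.mem_stab_conj h hua
      have h4 : tr e u * (tr e v * (tr e w)⁻¹) * (tr e u)⁻¹ =
          tr e u * tr e v * (tr e u)⁻¹ * (tr e u * tr e w * (tr e u)⁻¹)⁻¹ := by group
      have h5 : ∀ z, tr e u * tr e z * (tr e u)⁻¹ = tr e (transv u 1 • z) := fun z => tau_conj e (transv u 1) z
      rw [h4, h5, h5, transv_smul, transv_smul, one_mul, one_mul, hs v u, hs w u, huv, huw, one_smul, zero_smul,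
        add_zero, add_comm v u] at h3
      exact h3
  obtain ⟨a, b, hab, -⟩ := S.nsr
  obtain ⟨v, w, hvw, h3, h4, h5, h6⟩ := (q a).exists_two (q b)
  have h7 := S.ti a b hab _ (key a v w h3 h4) (key b v w h5 h6)
  rw [mul_inv_eq_one] at h7
  exact hvw (tr_injective e hF (by omega) ((q a).ne_zero h3) ((q a).ne_zero h4) h7)

end Cfsg.Agent.H88.SysSp
end

-- part: H88/SysAlt
section
/-!
# The alternating and symmetric groups of degree at least 6 have no TI family (helper88)
-/

set_option autoImplicit false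

namespace Cfsg.Agent.H88.SysAlt

open Subgroup MulAction Cfsg.Agent.H360.ON

/-- the point stabiliser of `Alt X` is simple -/
theorem stab_le {X : Type*} [Fintype X] [DecidableEq X] (h6 : 6 ≤ Fintype.card X) (a : X)
    (M : Subgroup (Equiv.Perm X)) (hM : M ≤ alternatingGroup X) (hMa : ∀ m ∈ M, m a = a)
    (hinv : ∀ g ∈ alternatingGroup X, g a = a → ∀ m ∈ M, g * m * g⁻¹ ∈ M) (hne : M ≠ ⊥) :
    ∀ g ∈ alternatingGroup X, g a = a → g ∈ M := by
  set s : Finset X := Finset.univ.erase a with hs
  have hcard : 5 ≤ Nat.card s := by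
    rw [Nat.card_eq_fintype_card, Fintype.card_coe, hs, Finset.card_erase_of_mem (Finset.mem_univ _), Finset.card_univ]
    omega
  have hsupp : ∀ g : alternatingGroup X, (g : Equiv.Perm X) a = a → g ∈ (alternatingGroup.ofSubtype s).range := by
    intro g hg
    rw [alternatingGroup.mem_range_ofSubtype_iff]
    intro b hb
    rw [hs, Finset.mem_erase]
    refine ⟨?_, Finset.mem_univ _⟩
    rintro rfl
    rw [Equiv.Perm.mem_support] at hb
    exact hb hg
  have hfix : ∀ k : alternatingGroup s, ((alternatingGroup.ofSubtype s k : alternatingGroup X) : Equiv.Perm X) a = a := by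
    intro k
    have h1 : alternatingGroup.ofSubtype s k ∈ (alternatingGroup.ofSubtype s).range := ⟨k, rfl⟩
    rw [alternatingGroup.mem_range_ofSubtype_iff] at h1
    by_contra h2
    have h3 := h1 (Equiv.Perm.mem_support.2 h2)
    rw [hs, Finset.mem_erase] at h3
    exact h3.1 rfl
  let K : Subgroup (alternatingGroup s) := (M.comap (alternatingGroup X).subtype).comap (alternatingGroup.ofSubtype s)
  have hK : ∀ k, k ∈ K ↔ ((alternatingGroup.ofSubtype s k : alternatingGroup X) : Equiv.Perm X) ∈ M := fun _ => Iff.rfl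
  have hKn : K.Normal := by
    refine ⟨fun n hn g => ?_⟩
    rw [hK] at hn ⊢
    rw [map_mul, map_mul, map_inv]
    exact hinv _ (alternatingGroup.ofSubtype s g).2 (hfix g) _ hn
  rcases alternatingGroup.normal_subgroup_eq_bot_or_eq_top hcard (N := K) with h | h
  · exfalso
    apply hne
    rw [Subgroup.eq_bot_iff_forall]
    intro m hm
    obtain ⟨k, hk⟩ := hsupp ⟨m, hM hm⟩ (hMa m hm)
    have h1 : k ∈ K := by
      rw [hK, hk]
      exact hm
    rw [h, Subgroup.mem_bot] at h1
    rw [h1, map_one] at hk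
    exact (congrArg Subtype.val hk).symm
  · intro g hg hga
    obtain ⟨k, hk⟩ := hsupp ⟨g, hg⟩ hga
    have h1 : k ∈ K := by rw [h]; trivial
    rw [hK, hk] at h1
    exact h1

variable {G X : Type*} [Group G] [MulAction G X] [Finite G] [Finite X] [FaithfulSMul G X] {N : X → Subgroup G}

theorem not_sys (S : Sys N) {T : Subgroup G} (h6 : 6 ≤ Nat.card X) (hT : 2 * Nat.card T = (Nat.card X).factorial) :
    False := by
  classical
  have : Fintype X := Fintype.ofFinite X
  have hX : Nat.card X = Fintype.card X := Nat.card_eq_fintype_card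
  rw [hX] at h6 hT
  let φ : G →* Equiv.Perm X := toPermHom G X
  have hφ : Function.Injective φ := MulAction.toPerm_injective
  -- `φ(T)` is the alternating group
  have hTA : T.map φ = alternatingGroup X := by
    apply Equiv.Perm.eq_alternatingGroup_of_index_eq_two
    have h1 := (T.map φ).index_mul_card
    rw [Nat.card_congr (T.equivMapOfInjective φ hφ).toEquiv.symm, Nat.card_perm, hX, ← hT] at h1
    exact Nat.eq_of_mul_eq_mul_right Nat.card_pos h1
  -- every even permutation is in the image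
  have hsurj : ∀ p ∈ alternatingGroup X, ∃ g ∈ T, φ g = p := by
    intro p hp
    rw [← hTA] at hp
    exact hp
  have key : ∀ a : X, ∀ p ∈ alternatingGroup X, p a = a → ∃ x ∈ N a, φ x = p := by
    intro a p hp hpa
    set M : Subgroup (Equiv.Perm X) := (N a).map φ ⊓ alternatingGroup X with hM
    have hne : M ≠ ⊥ := by
      intro h
      -- `|N a| ≤ 2`
      obtain ⟨b, hab⟩ : ∃ b : X, b ≠ a := by
        have : Nontrivial X := Fintype.one_lt_card_iff_nontrivial.1 (by omega)
        exact exists_ne a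
      obtain ⟨ν, hν2, -, hν⟩ := SysNum.exists_nu S hab.symm
      have hβ := S.two_le_card_A hab.symm
      have h4 : 4 ≤ Nat.card (N a) := by
        rw [hν]
        exact Nat.mul_le_mul hν2 hβ
      have h5 : Nat.card ((N a).map φ) = Nat.card (N a) := Nat.card_congr ((N a).equivMapOfInjective φ hφ).toEquiv.symm
      have hinj : Function.Injective ((Equiv.Perm.sign : Equiv.Perm X →* ℤˣ).comp ((N a).map φ).subtype) := by
        rw [injective_iff_map_eq_one]
        intro y hy
        have h6 : (y : Equiv.Perm X) ∈ M := ⟨y.2, Equiv.Perm.mem_alternatingGroup.2 hy⟩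
        rw [h, Subgroup.mem_bot] at h6
        exact Subtype.ext h6
      have h6 := Nat.card_le_card_of_injective _ hinj
      have h7 : Nat.card ℤˣ = 2 := by rw [Nat.card_eq_fintype_card, Fintype.card_units_int]
      omega
    have h1 := stab_le h6 a M inf_le_right (by
      rintro _ ⟨⟨x, hx, rfl⟩, -⟩
      exact S.fix a x hx) (by
      rintro g hg hga _ ⟨⟨x, hx, rfl⟩, h2⟩
      obtain ⟨g, -, rfl⟩ := hsurj g hg
      have hga' : g • a = a := hga
      refine ⟨⟨g * x * g⁻¹, S.mem_stab_conj hx hga', by simp only [_root_.map_mul, _root_.map_inv]⟩, ?_⟩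
      exact (alternatingGroup X).mul_mem ((alternatingGroup X).mul_mem hg h2) ((alternatingGroup X).inv_mem hg)) hne p hp
      hpa
    exact h1.1
  obtain ⟨s, hs⟩ := Finset.exists_subset_card_eq (show 5 ≤ (Finset.univ : Finset X).card by rw [Finset.card_univ]; omega)
  obtain ⟨-, hs⟩ := hs
  obtain ⟨a, b, c, d, e, h1⟩ : ∃ a b c d e : X, [a, b, c, d, e].Nodup := by
    have h2 : s.toList.length = 5 := by rw [Finset.length_toList, hs]
    have h3 := s.nodup_toList
    match hl : s.toList, h2 with
    | [a, b, c, d, e], _ => exact ⟨a, b, c, d, e, by rw [← hl]; exact h3⟩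
  simp only [List.nodup_cons, List.mem_cons, List.not_mem_nil, or_false, not_or, List.nodup_nil, and_true] at h1
  obtain ⟨⟨hab, hac, had, hae⟩, ⟨hbc, hbd, hbe⟩, ⟨hcd, hce⟩, hde, -⟩ := h1
  set p : Equiv.Perm X := Equiv.swap c d * Equiv.swap d e with hp
  have hpA : p ∈ alternatingGroup X := by
    rw [Equiv.Perm.mem_alternatingGroup, hp, map_mul, Equiv.Perm.sign_swap hcd, Equiv.Perm.sign_swap hde]
    rfl
  have hpa : p a = a := by
    rw [hp, Equiv.Perm.mul_apply, Equiv.swap_apply_of_ne_of_ne had hae, Equiv.swap_apply_of_ne_of_ne hac had]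
  have hpb : p b = b := by
    rw [hp, Equiv.Perm.mul_apply, Equiv.swap_apply_of_ne_of_ne hbd hbe, Equiv.swap_apply_of_ne_of_ne hbc hbd]
  obtain ⟨x, hx, hxp⟩ := key a p hpA hpa
  obtain ⟨y, hy, hyp⟩ := key b p hpA hpb
  have hxy : x = y := hφ (hxp.trans hyp.symm)
  have h1 := S.ti a b hab x hx (by rw [hxy]; exact hy)
  rw [h1, map_one] at hxp
  have h2 : p e = c := by
    rw [hp, Equiv.Perm.mul_apply, Equiv.swap_apply_right, Equiv.swap_apply_right]
  rw [← hxp, Equiv.Perm.one_apply] at h2
  exact hce h2.symm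

end Cfsg.Agent.H88.SysAlt
end

-- part: H88/Graph22
section
/-!
# Automorphisms of the Higman-Sims graph: an element of order 7 does not commute with an element of order 5 (helper88)
-/

set_option autoImplicit false

namespace Cfsg.Agent.H88.Graph22

open MulAction

/-- fixed points on an invariant subset, modulo a prime -/
theorem modEq {G X : Type*} [Group G] [MulAction G X] [Finite X] {x : G} {r : ℕ} (hr : r.Prime) (hx : x ^ r = 1)
    {q : X → Prop} (hq : ∀ v, q v → q (x • v)) :
    Nat.card {a : X // q a} ≡ Nat.card {a : X // q a ∧ x • a = a} [MOD r] := by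
  classical
  have hf : Fact r.Prime := ⟨hr⟩
  have : Fintype X := Fintype.ofFinite X
  let f : Function.End {a : X // q a} := fun a => ⟨x • a.1, hq _ a.2⟩
  have hfp : ∀ n : ℕ, ∀ a, ((f ^ n) a).1 = x ^ n • a.1 := by
    intro n
    induction n with
    | zero =>
      intro a
      rw [pow_zero, pow_zero, one_smul]
      rfl
    | succ n ih =>
      intro a
      rw [pow_succ, pow_succ, mul_smul]
      exact ih (f a)
  have hf1 : f ^ r ^ 1 = 1 := by
    funext a
    apply Subtype.ext
    rw [hfp, pow_one, hx, one_smul]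
    rfl
  have h1 := Equiv.Perm.card_fixedPoints_modEq hf1
  rw [Nat.card_eq_fintype_card]
  refine h1.trans ?_
  have h2 : Fintype.card f.fixedPoints = Nat.card {a : X // q a ∧ x • a = a} := by
    rw [← Nat.card_eq_fintype_card]
    refine Nat.card_congr
      { toFun := fun a => ⟨a.1.1, a.1.2, congrArg Subtype.val a.2⟩
        invFun := fun a => ⟨⟨a.1, a.2.1⟩, Subtype.ext a.2.2⟩
        left_inv := fun _ => rfl
        right_inv := fun _ => rfl }
  rw [h2]

/-- the data -/
structure Dat {G X : Type*} [Group G] [MulAction G X] (R : X → X → Prop) : Prop where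
  symm : ∀ v w, R v w → R w v
  inv : ∀ (g : G) (v w : X), R v w → R (g • v) (g • w)
  irr : ∀ v, ¬ R v v
  card : Nat.card X = 100
  deg : ∀ v, Nat.card {w : X // R v w} = 22
  tri : ∀ v w u, R v w → R v u → R w u → False
  six : ∀ v w, v ≠ w → ¬ R v w → Nat.card {u : X // R v u ∧ R w u} = 6
  seven : ∀ x : G, orderOf x = 7 → ∀ v w, v ≠ w → ¬ R v w → x • v = v → x • w = w → False

variable {G X : Type*} [Group G] [MulAction G X] [Finite X] [FaithfulSMul G X] {R : X → X → Prop}

theorem Dat.not_comm (D : Dat (G := G) R) {x y : G} (hx : orderOf x = 7) (hy : orderOf y = 5) (hxy : x * y = y * x) :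
    False := by
  have hx7 : x ^ 7 = 1 := by rw [← hx]; exact pow_orderOf_eq_one x
  have hy5 : y ^ 5 = 1 := by rw [← hy]; exact pow_orderOf_eq_one y
  have hcomm : ∀ v : X, x • y • v = y • x • v := fun v => by rw [← mul_smul, hxy, mul_smul]
  -- a fixed edge
  have h2 := modEq (X := X) (q := fun _ => True) (by norm_num : Nat.Prime 7) hx7 (fun _ _ => trivial)
  have e1 : Nat.card {a : X // True} = 100 := by
    rw [← D.card]
    exact Nat.card_congr (Equiv.subtypeUnivEquiv fun _ => trivial)
  rw [e1] at h2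
  obtain ⟨⟨a, ta, ha⟩, ⟨b, tb, hb⟩, hab⟩ : ∃ s t : {a : X // True ∧ x • a = a}, s ≠ t := by
    have : 1 < Nat.card {a : X // True ∧ x • a = a} := by
      have h3 : 100 % 7 = Nat.card {a : X // True ∧ x • a = a} % 7 := h2
      omega
    have h4 := (Finite.one_lt_card_iff_nontrivial (α := {a : X // True ∧ x • a = a})).1 this
    exact exists_pair_ne _
  have hab : a ≠ b := fun h => hab (Subtype.ext h)
  have hclique : ∀ v w : X, v ≠ w → x • v = v → x • w = w → R v w := by
    intro v w hvw hv hw
    by_contra h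
    exact D.seven x hx v w hvw h hv hw
  have hRab := hclique a b hab ha hb
  have honly : ∀ v : X, x • v = v → v = a ∨ v = b := by
    intro v hv
    by_contra hcon
    push Not at hcon
    exact D.tri a b v hRab (hclique a v hcon.1.symm ha hv) (hclique b v hcon.2.symm hb hv)
  -- `y` fixes `a` and `b`
  have hyfix : ∀ v : X, x • v = v → y • v = v := by
    have hstep : ∀ v w : X, x • v = v → x • w = w → v ≠ w → (∀ u, x • u = u → u = v ∨ u = w) → y • v = v := by
      intro v w hv hw hvw honly
      have h3 : x • y • v = y • v := by rw [hcomm, hv]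
      rcases honly _ h3 with h4 | h4
      · exact h4
      · exfalso
        have h5 : x • y • w = y • w := by rw [hcomm, hw]
        have h6 : y • w = v := by
          rcases honly _ h5 with h6 | h6
          · exact h6
          · rw [← h4] at h6
            have := smul_left_cancel y h6
            rw [h4] at this
            exact absurd this.symm hvw
        have h7 : y ^ 5 • v = w := by
          rw [pow_succ, mul_smul, h4, pow_succ, mul_smul, h6, pow_succ, mul_smul, h4, pow_succ, mul_smul, h6, pow_one, h4]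
        rw [hy5, one_smul] at h7
        exact hvw h7
    intro v hv
    rcases honly v hv with rfl | rfl
    · exact hstep v b hv hb hab honly
    · exact hstep v a hv ha hab.symm fun u hu => (honly u hu).symm
  -- `y` fixes the neighbours of `a` and `b`
  have hnbr : ∀ v w : X, x • v = v → x • w = w → v ≠ w → (∀ u, x • u = u → u = v ∨ u = w) → ∀ u, R v u → y • u = u := by
    intro v w hv hw hvw honly u hu
    have hRvw := hclique v w hvw hv hw
    have h3 := modEq (X := X) (q := fun u => R v u) (by norm_num : Nat.Prime 5) hy5 (by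
      intro u hu
      have := D.inv y v u hu
      rwa [hyfix v hv] at this)
    have h4 := modEq (X := X) (q := fun u => R v u ∧ y • u = u) (by norm_num : Nat.Prime 7) hx7 (by
      rintro u ⟨hu, hyu⟩
      have := D.inv x v u hu
      rw [hv] at this
      refine ⟨this, ?_⟩
      rw [← hcomm, hyu])
    rw [D.deg] at h3
    have e2 : Nat.card {u : X // (R v u ∧ y • u = u) ∧ x • u = u} = 1 := by
      rw [Nat.card_eq_one_iff_unique]
      have key : ∀ c : {u : X // (R v u ∧ y • u = u) ∧ x • u = u}, c.1 = w := by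
        rintro ⟨c, ⟨hc1, hc2⟩, hc3⟩
        rcases honly c hc3 with h5 | h5
        · rw [h5] at hc1
          exact absurd hc1 (D.irr v)
        · exact h5
      refine ⟨⟨fun c d => Subtype.ext ?_⟩, ⟨⟨w, ⟨hRvw, hyfix w hw⟩, hw⟩⟩⟩
      rw [key c, key d]
    rw [e2] at h4
    have hle : Nat.card {u : X // R v u ∧ y • u = u} ≤ 22 := by
      rw [← D.deg v]
      exact Nat.card_le_card_of_injective (fun c => (⟨c.1, c.2.1⟩ : {u : X // R v u}))
        (fun c d h => Subtype.ext (congrArg (fun t : {u : X // R v u} => t.1) h))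
    have h22 : Nat.card {u : X // R v u ∧ y • u = u} = 22 := by
      have h5 : 22 % 5 = Nat.card {u : X // R v u ∧ y • u = u} % 5 := h3
      have h6 : Nat.card {u : X // R v u ∧ y • u = u} % 7 = 1 % 7 := h4
      omega
    have hbij : Function.Bijective (fun c : {u : X // R v u ∧ y • u = u} => (⟨c.1, c.2.1⟩ : {u : X // R v u})) :=
      (Nat.bijective_iff_injective_and_card _).2
        ⟨fun c d h => Subtype.ext (congrArg (fun t : {u : X // R v u} => t.1) h), by rw [h22, D.deg]⟩
    obtain ⟨c, hc⟩ := hbij.2 ⟨u, hu⟩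
    have h7 : c.1 = u := congrArg (fun t : {u : X // R v u} => t.1) hc
    rw [← h7]
    exact c.2.2
  have hna := hnbr a b ha hb hab honly
  have hnb := hnbr b a hb ha hab.symm fun u hu => (honly u hu).symm
  -- `y` is trivial
  have hall : ∀ v : X, y • v = v := by
    intro v
    by_contra hv
    have hva : v ≠ a := by
      rintro rfl
      exact hv (hyfix v ha)
    have hvb : v ≠ b := by
      rintro rfl
      exact hv (hyfix v hb)
    have hRva : ¬ R v a := fun h => hv (hna v (D.symm _ _ h))
    have hRvb : ¬ R v b := fun h => hv (hnb v (D.symm _ _ h))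
    have h3 := D.six v a hva hRva
    have h4 := D.six v b hvb hRvb
    -- the common neighbours of `v` and `y • v`
    have h5 : Nat.card {u : X // R v u ∧ R (y • v) u} ≤ 6 := by
      by_cases hR : R v (y • v)
      · have : IsEmpty {u : X // R v u ∧ R (y • v) u} := ⟨fun u => D.tri v (y • v) u.1 hR u.2.1 u.2.2⟩
        rw [Nat.card_of_isEmpty]
        omega
      · exact (D.six v (y • v) (Ne.symm hv) hR).le
    let f : {u : X // R v u ∧ R a u} ⊕ {u : X // R v u ∧ R b u} → {u : X // R v u ∧ R (y • v) u} := fun t =>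
      match t with
      | Sum.inl u => ⟨u.1, u.2.1, by
          have := D.inv y v u.1 u.2.1
          rwa [hna u.1 u.2.2] at this⟩
      | Sum.inr u => ⟨u.1, u.2.1, by
          have := D.inv y v u.1 u.2.1
          rwa [hnb u.1 u.2.2] at this⟩
    have hf : Function.Injective f := by
      rintro (s | s) (t | t) h
      · have h6 : s.1 = t.1 := congrArg (fun z : {u : X // R v u ∧ R (y • v) u} => z.1) h
        rw [Subtype.ext h6]
      · have h6 : s.1 = t.1 := congrArg (fun z : {u : X // R v u ∧ R (y • v) u} => z.1) h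
        have h7 := s.2.2
        rw [h6] at h7
        exact absurd t.2.2 fun h8 => D.tri a b t.1 hRab h7 h8
      · have h6 : s.1 = t.1 := congrArg (fun z : {u : X // R v u ∧ R (y • v) u} => z.1) h
        have h7 := s.2.2
        rw [h6] at h7
        exact absurd t.2.2 fun h8 => D.tri a b t.1 hRab h8 h7
      · have h6 : s.1 = t.1 := congrArg (fun z : {u : X // R v u ∧ R (y • v) u} => z.1) h
        rw [Subtype.ext h6]
    have h6 := Nat.card_le_card_of_injective f hf
    rw [Nat.card_sum, h3, h4] at h6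
    omega
  have h3 : y = 1 := by
    apply FaithfulSMul.eq_of_smul_eq_smul (α := X)
    intro b
    rw [one_smul, hall]
  rw [h3, orderOf_one] at hy
  norm_num at hy

end Cfsg.Agent.H88.Graph22
end

-- part: H88/CentHS
section
/-!
# The centralisers of the elements of order 7 in `HS` have order prime to 5 (helper88)
-/

set_option autoImplicit false

namespace Cfsg.Agent.H88.CentHS

open MulAction Cfsg Cfsg.Agent.SporadicRecognition.RankThree Cfsg.Agent.SporadicRecognition.HSAssemble

/-- the data of the rank three action -/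
theorem dat {G X : Type*} [Group G] [MulAction G X] [Fintype X] [Finite G] {a b c : X}
    (h : IsRankThree G a b c 22 77) (hG : Nat.card G = 44352000) : Graph22.Dat (G := G) (Orb G a b : X → X → Prop) := by
  classical
  have S := srg h
  have htr := h.trans
  refine
    { symm := fun v w => h.orb_symm
      inv := fun g v w hvw => hvw.smul g
      irr := fun v hv => h.orb_ne hv rfl
      card := by rw [Nat.card_eq_fintype_card, S.card]
      deg := ?_
      tri := ?_
      six := ?_
      seven := ?_ }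
  · intro v
    have h1 := S.regular v
    rw [← SimpleGraph.card_neighborSet_eq_degree, ← Nat.card_eq_fintype_card] at h1
    exact h1
  · intro v w u hvw hvu hwu
    have h1 := S.of_adj v w hvw
    rw [Fintype.card_eq_zero_iff] at h1
    exact h1.false ⟨u, hvu, hwu⟩
  · intro v w hvw hR
    have h1 := S.of_not_adj hvw hR
    rw [← Nat.card_eq_fintype_card] at h1
    exact h1
  · intro x hx v w hvw hR hv hw
    obtain ⟨g, rfl, rfl⟩ := (h.not_adj_iff hvw).1 hR
    have e1 : Nat.card (stabilizer G a) = 443520 := by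
      have h1 := (stabilizer G a).index_mul_card
      rw [index_stabilizer_of_transitive, hG, Nat.card_eq_fintype_card, S.card] at h1
      omega
    have e2 : Nat.card (stabilizer (stabilizer G a) c) = 5760 := by
      have h1 := (stabilizer (stabilizer G a) c).index_mul_card
      have h2 : (stabilizer (stabilizer G a) c).index = 77 := by
        rw [index_stabilizer, h.cc]
      rw [h2, e1] at h1
      omega
    have hxa : (g⁻¹ * x * g) • a = a := by
      rw [mul_smul, mul_smul, hv, inv_smul_smul]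
    have hxc : (g⁻¹ * x * g) • c = c := by
      rw [mul_smul, mul_smul, hw, inv_smul_smul]
    let z : stabilizer (stabilizer G a) c := ⟨⟨g⁻¹ * x * g, hxa⟩, hxc⟩
    have hz : orderOf z = 7 := by
      rw [← Subgroup.orderOf_coe, ← Subgroup.orderOf_coe, ← hx]
      have h3 : ((z : stabilizer G a) : G) = (MulAut.conj g⁻¹) x := by
        rw [MulAut.conj_apply, inv_inv]
      rw [h3]
      exact orderOf_injective (MulAut.conj g⁻¹).toMonoidHom (MulAut.conj g⁻¹).injective x
    have h3 := orderOf_dvd_natCard z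
    rw [hz, e2] at h3
    norm_num at h3

theorem not_dvd {K : Type*} [Group K] (h : Spor.IsoHS K) (x : K) (hx : orderOf x = 7) :
    ¬ 5 ∣ Nat.card (Subgroup.centralizer ({x} : Set K)) := by
  intro h5
  obtain ⟨H, Y, _, _, _, _, a, b, c, hr, hc, -, ⟨e⟩⟩ := hs_rank
  obtain ⟨e'⟩ := h
  have hfin : Finite H := Nat.finite_of_card_ne_zero (by rw [hc]; norm_num)
  let φ : K ≃* H := e'.trans e.symm
  have hK : Finite K := Finite.of_equiv _ φ.symm.toEquiv
  have D := dat hr hc
  have hf : Fact (Nat.Prime 5) := ⟨by norm_num⟩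
  obtain ⟨y, hy⟩ := exists_prime_orderOf_dvd_card' 5 h5
  refine D.not_comm (x := φ x) (y := φ y) ?_ ?_ ?_
  · rw [← hx]
    exact orderOf_injective φ.toMonoidHom φ.injective x
  · rw [← hy, ← Subgroup.orderOf_coe]
    exact orderOf_injective φ.toMonoidHom φ.injective (y : K)
  · rw [← map_mul, ← map_mul, Subgroup.mem_centralizer_singleton_iff.1 y.2]

end Cfsg.Agent.H88.CentHS
end

-- part: H88/Concl
section
/-!
# 2-transitive groups of known type with a non-semiregular TI family (helper88)

`concl` : the socle is `PSL_n(F)`, `n ≥ 3`, on the points of the projective space.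
-/

set_option autoImplicit false

namespace Cfsg.Agent.H88.Concl

open Subgroup MulAction Cfsg.Agent.H360.ON
open Cfsg Cfsg.Agent.H384.TwoTrans

universe u v

/-- the facts about the sporadic groups used below -/
structure Facts : Prop where
  m11 : Nat.card ↥Spor.M11 = 7920
  m12 : Nat.card ↥Spor.M12 = 95040
  m22 : Nat.card ↥Spor.M22 = 443520
  m23 : Nat.card ↥Spor.M23 = 10200960
  m24 : Nat.card ↥Cfsg.M24 = 244823040
  hs : Nat.card ↥Spor.HS = 44352000
  co3 : Nat.card ↥Spor.Co3 = 495766656000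
  out_m11 : Nat.card (Cfsg.Out ↥Spor.M11) = 1
  out_m12 : Nat.card (Cfsg.Out ↥Spor.M12) = 2
  out_m22 : Nat.card (Cfsg.Out ↥Spor.M22) = 2
  out_m23 : Nat.card (Cfsg.Out ↥Spor.M23) = 1
  out_m24 : Nat.card (Cfsg.Out ↥Cfsg.M24) = 1
  out_hs : Nat.card (Cfsg.Out ↥Spor.HS) = 2
  out_co3 : Nat.card (Cfsg.Out ↥Spor.Co3) = 1
  co3_five : ∀ x : ↥Spor.Co3, orderOf x = 5 →
    Nat.card (centralizer ({x} : Set ↥Spor.Co3)) ∣ 2 ^ 5 * 3 * 5 ^ 3

variable {G : Type u} {X : Type v} [Group G] [MulAction G X] {T : Subgroup G} {N : X → Subgroup G}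

theorem card_dvd_aut (A : AS G X T) : Nat.card G ∣ Nat.card (MulAut T) := by
  have := A.normal
  have := A.finG
  have : Finite (MulAut T) := inferInstance
  exact Subgroup.card_dvd_of_injective _ (H57.TTOut.conj_injective A.cent)

theorem card_dvd_of_equiv (A : AS G X T) {Y : Type*} [Group Y] (e : T ≃* Y) : Nat.card G ∣ Nat.card (MulAut Y) := by
  rw [← Nat.card_congr (MulAut.congr e).toEquiv]
  exact card_dvd_aut A

theorem card_psl {F : Type*} [Field F] [Fintype F] {q n c : ℕ} (hF : Fintype.card F = q) (hn : 2 ≤ n)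
    (hc : ∏ i : Fin n, (q ^ n - q ^ (i : ℕ)) = (Nat.gcd n (q - 1) * (q - 1)) * c)
    (h0 : 0 < Nat.gcd n (q - 1) * (q - 1)) : Nat.card (Matrix.ProjectiveSpecialLinearGroup (Fin n) F) = c := by
  have h := S0243.result hF n hn
  rw [hc, ← mul_assoc] at h
  exact Nat.eq_of_mul_eq_mul_left h0 h

theorem two_mul_card_alt {n : ℕ} (hn : 2 ≤ n) (e : T ≃* ↥(alternatingGroup (Fin n))) :
    2 * Nat.card T = n.factorial := by
  have : Nontrivial (Fin n) := Fin.nontrivial_iff_two_le.2 hn
  rw [Nat.card_congr e.toEquiv, two_mul_nat_card_alternatingGroup, Nat.card_perm, Nat.card_eq_fintype_card,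
    Fintype.card_fin]

theorem card_aut_alt {n : ℕ} (hn : 4 ≤ n) (h6 : n ≠ 6) :
    Nat.card (MulAut ↥(alternatingGroup (Fin n))) = n.factorial := by
  rw [← Nat.card_congr (Equiv.ofBijective _ (S2119.result n hn h6)), Nat.card_perm, Nat.card_eq_fintype_card,
    Fintype.card_fin]

theorem card_aut_psl {F : Type*} [Field F] [Fintype F] {p f c : ℕ} (hp : p.Prime) (hF : Fintype.card F = p ^ f)
    (hf : 1 ≤ f) (h4 : 4 ≤ p ^ f) (hc : Nat.card (Matrix.ProjectiveSpecialLinearGroup (Fin 2) F) = c) :
    Nat.card (MulAut (Matrix.ProjectiveSpecialLinearGroup (Fin 2) F)) = Nat.gcd 2 (p ^ f - 1) * f * c := by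
  have : Fact p.Prime := ⟨hp⟩
  rw [H436.TT.card_mulAut p f hF hf (by rw [hF]; exact h4), hc, hF]

/-- **The conclusion.** -/
theorem concl (Fc : Facts) (S : Sys N) (A : AS G X T) (K : Known2 T (Nat.card X)) :
    ∃ (L : Subgroup G) (F : Type) (_ : Field F) (_ : Fintype F) (n : ℕ), 3 ≤ n ∧ L.Normal ∧
      Subgroup.centralizer (L : Set G) = ⊥ ∧ Nonempty (↥L ≃* Matrix.ProjectiveSpecialLinearGroup (Fin n) F) ∧
      Nat.card X * (Fintype.card F - 1) = Fintype.card F ^ n - 1 := by
  have hN := A.normal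
  have htr := A.transitive
  have := A.finG
  have := A.finΩ
  have := A.faithful
  have := A.simple
  have hna : ¬ ∀ x y : T, x * y = y * x := fun h => A.nonab ⟨⟨h⟩⟩
  generalize hX : Nat.card X = n at K
  cases K with
  | alt _ hn e =>
    obtain ⟨e⟩ := e
    exfalso
    have h2 := two_mul_card_alt (by omega) e
    rcases Nat.lt_or_ge n 6 with h6 | h6
    · have h5 : n = 5 := by omega
      subst h5
      have h3 : Nat.card T = 60 := by
        have : Nat.factorial 5 = 120 := rfl
        omega
      refine SysRows.alt5 S hX h3 ?_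
      rw [h3]
      have h4 := card_dvd_of_equiv A e
      rw [card_aut_alt (by norm_num) (by norm_num)] at h4
      exact h4
    · exact SysAlt.not_sys S (T := T) (by rw [hX]; exact h6) (by rw [hX]; exact h2)
  | psl F d _ hd hd2 e hn =>
    rcases Nat.lt_or_ge d 3 with h3 | h3
    · exfalso
      have hd' : d = 2 := by omega
      subst hd'
      obtain ⟨e⟩ := e
      obtain ⟨p, H, S', Φ, w, R, hc⟩ := RkPsl.exists_rk e
      refine R.not_sys S hN htr ?_
      rw [hX, hc]
      have h4 := hd2 rfl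
      have h5 : Fintype.card F ^ 2 - 1 = (Fintype.card F + 1) * (Fintype.card F - 1) := by
        have := Nat.sq_sub_sq (Fintype.card F) 1
        rwa [one_pow] at this
      rw [h5] at hn
      exact Nat.eq_of_mul_eq_mul_right (by omega) hn
    · exact ⟨T, F, inferInstance, inferInstance, d, h3, hN, A.cent, e, hn⟩
  | sp F m _ hF hm e hn =>
    obtain ⟨e⟩ := e
    exact (SysSp.not_sys e S A hF hm (by rw [hX]; exact hn)).elim
  | psu F q _ hq hF e hn =>
    obtain ⟨e⟩ := e
    obtain ⟨p, H, S', Φ, w, R, hc⟩ := RkPsu.exists_rk hF hq e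
    exact (R.not_sys S hN htr (by rw [hX, hc, hn])).elim
  | sz F m _ hm hF e hn =>
    obtain ⟨e⟩ := e
    obtain ⟨p, H, S', Φ, w, R, hc⟩ := RkSz.exists_rk hF e
    exact (R.not_sys S hN htr (by rw [hX, hc, hn])).elim
  | ree K m _ hm hK e hn =>
    obtain ⟨e⟩ := e
    obtain ⟨p, H, S', Φ, w, R, hc⟩ := RkRee.exists_rk hK hm e
    exact (R.not_sys S hN htr (by rw [hX, hc, hn])).elim
  | psl2_8 F hF e =>
    obtain ⟨e⟩ := e
    have h1 := card_psl (F := F) (n := 2) (c := 504) hF le_rfl (by decide) (by decide)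
    refine (SysRows.psl28 S hX (by rw [Nat.card_congr e.toEquiv, h1]) ?_).elim
    rw [Nat.card_congr e.toEquiv, h1]
    have h2 := card_dvd_of_equiv A e
    rw [card_aut_psl (p := 2) (f := 3) Nat.prime_two (by rw [hF]; norm_num) (by norm_num) (by norm_num) h1] at h2
    exact h2
  | psl2_9 F hF e =>
    obtain ⟨e⟩ := e
    have h1 := card_psl (F := F) (n := 2) (c := 360) hF le_rfl (by decide) (by decide)
    refine (SysAlt.not_sys S (T := T) (by rw [hX]) ?_).elim
    rw [hX, Nat.card_congr e.toEquiv, h1]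
    rfl
  | psl2_11 F hF e =>
    obtain ⟨e⟩ := e
    have h1 := card_psl (F := F) (n := 2) (c := 660) hF le_rfl (by decide) (by decide)
    refine (SysRows.psl211 S hX (by rw [Nat.card_congr e.toEquiv, h1]) ?_).elim
    rw [Nat.card_congr e.toEquiv, h1]
    have h2 := card_dvd_of_equiv A e
    rw [card_aut_psl (p := 11) (f := 1) (by norm_num) (by rw [hF]; norm_num) (by norm_num) (by norm_num) h1] at h2
    exact h2
  | psl4_2 F hF e =>
    obtain ⟨e⟩ := e
    have h1 := card_psl (F := F) (n := 4) (c := 20160) hF (by norm_num) (by decide) (by decide)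
    refine (SysAlt.not_sys S (T := T) (by rw [hX]; norm_num) ?_).elim
    rw [hX, Nat.card_congr e.toEquiv, h1]
    rfl
  | a7 e =>
    obtain ⟨e⟩ := e
    have h2 := two_mul_card_alt (by omega) e
    have h3 : Nat.card T = 2520 := by
      have : Nat.factorial 7 = 5040 := rfl
      omega
    refine (SysRows.a7 S hX h3 ?_).elim
    rw [h3]
    have h4 := card_dvd_of_equiv A e
    rw [card_aut_alt (by norm_num) (by norm_num)] at h4
    exact h4
  | m11 h =>
    obtain ⟨e⟩ := h
    have h1 := H57.TTOut.AS.card_dvd A e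
    rw [Fc.out_m11] at h1
    exact (SysRows.m11 S hX (by rw [Nat.card_congr e.toEquiv, Fc.m11]) h1).elim
  | m11' h =>
    obtain ⟨e⟩ := h
    have h1 := H57.TTOut.AS.card_dvd A e
    rw [Fc.out_m11] at h1
    exact (SysRows.m11' S hX (by rw [Nat.card_congr e.toEquiv, Fc.m11]) h1).elim
  | m12 h =>
    obtain ⟨e⟩ := h
    have h1 := H57.TTOut.AS.card_dvd A e
    rw [Fc.out_m12] at h1
    exact (SysRows.m12 S hX (by rw [Nat.card_congr e.toEquiv, Fc.m12]) h1).elim
  | m22 h =>
    obtain ⟨e⟩ := h
    have h1 := H57.TTOut.AS.card_dvd A e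
    rw [Fc.out_m22] at h1
    exact (SysRows.m22 S hN hna hX (by rw [Nat.card_congr e.toEquiv, Fc.m22]) h1).elim
  | m23 h =>
    obtain ⟨e⟩ := h
    have h1 := H57.TTOut.AS.card_dvd A e
    rw [Fc.out_m23] at h1
    exact (SysRows.m23 S hX (by rw [Nat.card_congr e.toEquiv, Fc.m23]) h1).elim
  | m24 h =>
    obtain ⟨e⟩ := h
    have h1 := H57.TTOut.AS.card_dvd A e
    rw [Fc.out_m24] at h1
    exact (SysRows.m24 S hX (by rw [Nat.card_congr e.toEquiv, Fc.m24]) h1).elim
  | hs h =>
    obtain ⟨e⟩ := h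
    have h1 := H57.TTOut.AS.card_dvd A e
    rw [Fc.out_hs] at h1
    exact (SysRows.hs S hN (CentHS.not_dvd ⟨e⟩) hX (by rw [Nat.card_congr e.toEquiv, Fc.hs]) h1).elim
  | co3 h =>
    obtain ⟨e⟩ := h
    have h1 := H57.TTOut.AS.card_dvd A e
    rw [Fc.out_co3] at h1
    refine (SysRows.co3 S hN ?_ hX (by rw [Nat.card_congr e.toEquiv, Fc.co3]) h1).elim
    intro x hx
    have h2 := Fc.co3_five (e x) (by rw [← hx]; exact orderOf_injective e.toMonoidHom e.injective x)
    have : Finite ↥Spor.Co3 := Nat.finite_of_card_ne_zero (by rw [Fc.co3]; norm_num)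
    refine dvd_trans ?_ h2
    let f : centralizer ({x} : Set T) →* centralizer ({e x} : Set ↥Spor.Co3) :=
      { toFun := fun g => ⟨e g.1, mem_centralizer_singleton_iff.2 (by
          rw [← map_mul, ← map_mul, mem_centralizer_singleton_iff.1 g.2])⟩
        map_one' := Subtype.ext (by simp only [_root_.OneMemClass.coe_one, _root_.map_one])
        map_mul' := fun _ _ => Subtype.ext (by simp) }
    apply card_dvd_of_injective f
    intro g g' hg
    exact Subtype.ext (e.injective (congrArg Subtype.val hg))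

end Cfsg.Agent.H88.Concl
end
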